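import Cfsg.Agent.DCS.Defs

/-! Tower DCS: assembly from the work-package statements. -/

set_option autoImplicit false

namespace Cfsg.Lib.DCS

open Subgroup

universe u

theorem prLe_seven (hTop : WTop.{u}) (hGL : WGL0.{u}) (hOdd : WOdd.{u}) (hFer : WFermat.{u})
    {G : Type u} [Group G] [Finite G] (hs : Group.IsSolvable G) (hR : Rat G) : PrLe 7 G := by
  classical
  by_contra hn
  have hne : (Nat.card G).primeFactors.Nonempty := by
    simp only [PrLe, not_forall] at hn
    obtain ⟨q, hq, hd, -⟩ := hn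
    exact ⟨q, Nat.mem_primeFactors.2 ⟨hq, hd, Nat.card_pos.ne'⟩⟩
  set p := (Nat.card G).primeFactors.max' hne with hp
  have hpm := Nat.mem_primeFactors.1 ((Nat.card G).primeFactors.max'_mem hne)
  rw [← hp] at hpm
  have hle : PrLe p G := fun q hq hd =>
    (Nat.card G).primeFactors.le_max' q (Nat.mem_primeFactors.2 ⟨hq, hd, Nat.card_pos.ne'⟩)
  have hp7 : 7 < p := by
    by_contra h
    exact hn fun q hq hd => (hle q hq hd).trans (by omega)
  have hp11 : 11 ≤ p := by
    by_contra h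
    have hpp := hpm.1
    interval_cases p <;> exact absurd hpp (by norm_num)
  have : Fact p.Prime := ⟨hpm.1⟩
  obtain ⟨H, V, _, _, _, _, _, ρ, hg, hd, -⟩ := hTop p hs hR hpm.2.1
  obtain ⟨E, U, _, _, _, _, _, σ, hf, hd', -⟩ := hGL p ρ hg
  by_cases h : ∃ s : ℕ, s.Prime ∧ s ≠ 2 ∧ s ∣ p - 1
  · obtain ⟨s, h1, h2, h3⟩ := h
    exact hOdd p σ hf hp11 s h1 h2 h3
  · push Not at h
    have h0 : p - 1 ≠ 0 := by omega
    have hj := Nat.eq_prime_pow_of_unique_prime_dvd h0 (p := 2) (fun {d} hd1 hd2 => by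
      by_contra h2; exact h d hd1 h2 hd2)
    set j := (p - 1).primeFactorsList.length
    refine hFer p σ hf (fun q hq hq' => hle q hq ((hq'.trans hd').trans hd)) j ?_ (by omega)
    by_contra h4
    have : 2 ^ j ≤ 2 ^ 3 := Nat.pow_le_pow_right (by norm_num) (by omega)
    omega

theorem main_of (hTop : WTop.{u}) (hGL : WGL0.{u}) (hOdd : WOdd.{u}) (hFer : WFermat.{u})
    (hBot : WBot.{u}) (hSev : WSeven.{u}) (hD7 : WD7a.{u}) (hFive : WFive.{u}) (hSix : WSix.{u})
    (hTwo : WTwo.{u}) (hHarm : WHarm.{u}) (hThree : WThree.{u}) (hA : WFourA.{u})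
    (hB : WFourB.{u}) (hS : WFourS.{u})
    {G : Type u} [Group G] [Finite G] [Nontrivial G] (hs : Group.IsSolvable G) (hD : DC G) :
    Nonempty (G ≃* Equiv.Perm (Fin 3)) := by
  have hR := hD.rat
  have h7 := prLe_seven hTop hGL hOdd hFer hs hR
  have : Fact (Nat.Prime 7) := ⟨by norm_num⟩
  have : Fact (Nat.Prime 5) := ⟨by norm_num⟩
  have hn7 : ¬ 7 ∣ Nat.card G := by
    intro hd
    obtain ⟨H, V, _, _, _, _, _, ρ, hg, hv⟩ := hBot 7 hs hD hd (hD7 hs hR h7)
    obtain ⟨E, U, _, _, _, _, _, σ, hf, -, ht⟩ := hGL 7 ρ hg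
    exact hSev σ hf (ht hv)
  have h5 : PrLe 5 G := by
    intro q hq hd
    have := h7 q hq hd
    by_contra h
    have : q = 6 ∨ q = 7 := by omega
    rcases this with rfl | rfl
    · exact absurd hq (by norm_num)
    · exact hn7 hd
  by_contra hn
  have c2 : ∀ x : G, cz x ≠ 2 := fun x hx => hn (hTwo hD x hx)
  have c3 : ∀ x : G, cz x ≠ 3 := fun x hx => by
    obtain ⟨y, hy⟩ := hThree hs hD h5 x hx
    exact c2 y hy
  have c4 : ∀ x : G, cz x ≠ 4 := fun x hx => by
    obtain ⟨S, h1, h2, h3 | ⟨h3, Q, q1, q2, q3, q4, q5⟩⟩ := hS hs hR x hx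
    · exact hA hD S x h1 hx h2 h3
    · exact hB hD S x h1 hx h3 Q q1 q2 q3 q4 q5
  have c1 : ∀ x : G, cz x ≠ 1 := fun x hx => by
    have h1 : orderOf x ∣ 1 := hx ▸ orderOf_dvd_cz rfl
    rw [Nat.dvd_one, orderOf_eq_one_iff] at h1
    rw [h1, cz_one] at hx
    exact (Finite.one_lt_card (α := G)).ne' hx
  have c0 : ∀ x : G, 4 < cz x := fun x => by
    have := cz_pos x; have := c1 x; have := c2 x; have := c3 x; have := c4 x; omega
  by_cases h5d : 5 ∣ Nat.card G
  · refine (hHarm hD).2.1 h5 fun x => ⟨?_, fun h => ?_⟩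
    · have c5 : cz x ≠ 5 := fun h => by
        have := hFive hs hR h5 x (by rw [h]) (by rw [h]; norm_num)
        omega
      have c6 : cz x ≠ 6 := fun h => by
        obtain ⟨H, V, _, _, _, _, _, ρ, hg, hd, hy⟩ := hTop 5 hs hR h5d
        have ho : orderOf x ∣ 6 := h ▸ orderOf_dvd_cz rfl
        obtain ⟨y, y1, y2⟩ := hy x (Nat.Coprime.coprime_dvd_left ho (by norm_num))
        refine hSix ρ hg (fun q hq hq' => ?_) y (y1.trans ho) (h ▸ y2)
        have := h5 q hq (hq'.trans hd)
        by_contra h3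
        have : q = 4 ∨ q = 5 := by omega
        rcases this with rfl | rfl
        · exact absurd hq (by norm_num)
        · exact hg.cop hq'
      have := c0 x; omega
    · by_cases h25 : 25 ∣ cz x
      · exact Or.inl h25
      · exact Or.inr (hFive hs hR h5 x h h25)
  · refine (hHarm hD).1 (fun q hq hq' => ?_) c0
    have := h5 q hq hq'
    by_contra h3
    have : q = 4 ∨ q = 5 := by omega
    rcases this with rfl | rfl
    · exact absurd hq (by norm_num)
    · exact h5d hq'

/-- the hypothesis of S4162 gives `DC` -/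
theorem dc_of_injective {G : Type*} [Group G] [Finite G]
    (h : Function.Injective fun C : ConjClasses G => Nat.card C.carrier) : DC G := by
  intro x y hxy
  have key : ∀ z : G, Nat.card (ConjClasses.mk z).carrier * cz z = Nat.card G := by
    intro z
    have h1 := MulAction.index_stabilizer (ConjAct G) z
    have h2 := (MulAction.stabilizer (ConjAct G) z).index_mul_card
    rw [h1, ConjAct.orbit_eq_carrier_conjClasses, ← Nat.card_coe_set_eq] at h2
    rw [cz, Subgroup.nat_card_centralizer_nat_card_stabilizer, h2]; rfl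
  have : Nat.card (ConjClasses.mk x).carrier = Nat.card (ConjClasses.mk y).carrier := by
    apply Nat.eq_of_mul_eq_mul_right (cz_pos x)
    rw [key x, hxy, key y]
  exact ConjClasses.mk_eq_mk_iff_isConj.1 (h this)

end Cfsg.Lib.DCS
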