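import Cfsg.Agent.DCS.Defs

/-! Tower DCS: harmonic sums of centralizer orders. -/

set_option autoImplicit false

namespace Cfsg.Lib.DCS

open Subgroup Finset

universe u

namespace Harm

/-- non-zero numbers all of whose prime divisors are at most `k` -/
def Sm (k n : ℕ) : Prop := n ≠ 0 ∧ ∀ q : ℕ, q.Prime → q ∣ n → q ≤ k

theorem step {k k' p : ℕ} {B : ℚ} (hp : p.Prime) (hB : 0 < B)
    (hk : ∀ q : ℕ, q.Prime → q ≤ k' → q ≠ p → q ≤ k)
    (h : ∀ A : Finset ℕ, (∀ n ∈ A, Sm k n) → ∑ n ∈ A, (1 / n : ℚ) ≤ B) (A : Finset ℕ)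
    (hA : ∀ n ∈ A, Sm k' n) : ∑ n ∈ A, (1 / n : ℚ) < (1 - 1 / (p : ℚ))⁻¹ * B := by
  have k1 : ∀ n ∈ A, ∃ a m, Sm k m ∧ n = p ^ a * m := fun n hn => by
    obtain ⟨a, m, h1, rfl⟩ := Nat.exists_eq_pow_mul_and_not_dvd (hA n hn).1 p hp.ne_one
    exact ⟨a, m, ⟨right_ne_zero_of_mul (hA _ hn).1, fun q hq e =>
      hk q hq ((hA _ hn).2 q hq (e.mul_left _)) fun e' => h1 (e' ▸ e)⟩, rfl⟩
  choose! f g h1 h2 using k1
  have k2 : A ⊆ (range (A.sup f + 1) ×ˢ A.image g).image fun q => p ^ q.1 * q.2 := fun n hn =>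
    mem_image.2 ⟨(f n, g n), mem_product.2 ⟨mem_range.2 (Nat.lt_succ_of_le (le_sup hn)),
      mem_image_of_mem g hn⟩, (h2 n hn).symm⟩
  have p1 : (1 : ℚ) < p := by exact_mod_cast hp.one_lt
  have p2 : (1 / p : ℚ) < 1 := by rwa [div_lt_one (by positivity)]
  have k3 : ∑ i ∈ range (A.sup f + 1), (1 / p : ℚ) ^ i < (1 - 1 / (p : ℚ))⁻¹ := by
    rw [← mul_lt_mul_iff_left₀ (sub_pos.2 p2), geom_sum_mul_neg, inv_mul_cancel₀ (sub_pos.2 p2).ne']
    exact sub_lt_self _ (by positivity)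
  have k4 := h (A.image g) fun m hm => by
    obtain ⟨n, hn, rfl⟩ := mem_image.1 hm
    exact h1 n hn
  calc _ ≤ _ := sum_le_sum_of_subset_of_nonneg k2 fun _ _ _ => by positivity
    _ ≤ ∑ q ∈ range (A.sup f + 1) ×ˢ A.image g, (1 / (p ^ q.1 * q.2 : ℕ) : ℚ) :=
      sum_image_le_of_nonneg fun _ _ => by positivity
    _ = (∑ i ∈ range (A.sup f + 1), (1 / p : ℚ) ^ i) * ∑ n ∈ A.image g, (1 / n : ℚ) := by
      rw [sum_mul_sum, sum_product]
      refine sum_congr rfl fun i _ => sum_congr rfl fun n _ => ?_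
      push_cast
      rw [one_div_pow, div_mul_div_comm, one_mul]
    _ ≤ (∑ i ∈ range (A.sup f + 1), (1 / p : ℚ) ^ i) * B :=
      mul_le_mul_of_nonneg_left k4 (sum_nonneg fun _ _ => by positivity)
    _ < _ := mul_lt_mul_of_pos_right k3 hB

theorem b1 (A : Finset ℕ) (hA : ∀ n ∈ A, Sm 1 n) : ∑ n ∈ A, (1 / n : ℚ) ≤ 1 := by
  have k : A ⊆ {1} := fun n hn => mem_singleton.2 (Nat.eq_one_iff_not_exists_prime_dvd.2
    fun q hq e => absurd ((hA n hn).2 q hq e) (not_le.2 hq.one_lt))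
  exact (sum_le_sum_of_subset_of_nonneg k fun _ _ _ => by positivity).trans (by simp)

theorem b2 (A : Finset ℕ) (hA : ∀ n ∈ A, Sm 2 n) : ∑ n ∈ A, (1 / n : ℚ) < 2 :=
  (step Nat.prime_two one_pos (fun q _ _ _ => by omega) b1 A hA).trans_le (by norm_num)

theorem b3 (A : Finset ℕ) (hA : ∀ n ∈ A, Sm 3 n) : ∑ n ∈ A, (1 / n : ℚ) < 3 :=
  (step Nat.prime_three two_pos (fun q _ _ _ => by omega) (fun A h => (b2 A h).le) A hA).trans_le
    (by norm_num)

theorem b5 (A : Finset ℕ) (hA : ∀ n ∈ A, Sm 5 n) : ∑ n ∈ A, (1 / n : ℚ) < 15 / 4 :=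
  (step Nat.prime_five three_pos (fun q hq _ _ => by
    have : q ≠ 4 := by rintro rfl; norm_num at hq
    omega) (fun A h => (b3 A h).le) A hA).trans_le (by norm_num)

theorem sm_of {k n : ℕ} (h0 : n ≠ 0) (h : ∀ q ∈ range (n + 1), k < q → q ∣ n → ¬ q.Prime) :
    Sm k n := ⟨h0, fun q hq e => not_lt.1 fun lt =>
  h q (mem_range.2 (Nat.lt_succ_of_le (Nat.le_of_dvd (Nat.pos_of_ne_zero h0) e))) lt e hq⟩

variable {G : Type u} [Group G] [Fintype G]

theorem h0 (h : DC G) (T : Finset G) (hT : ∀ x ∈ T, ∀ y, IsConj x y → y ∈ T) :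
    (T.card : ℚ) = Nat.card G * ∑ c ∈ T.image cz, (1 / c : ℚ) := by
  classical
  rw [card_eq_sum_card_image cz T, mul_sum]
  push_cast
  refine sum_congr rfl fun c hc => ?_
  obtain ⟨z, hz, rfl⟩ := mem_image.1 hc
  have h1 := MulAction.index_stabilizer (ConjAct G) z
  have h2 := (MulAction.stabilizer (ConjAct G) z).index_mul_card
  rw [h1, ConjAct.orbit_eq_carrier_conjClasses, ← nat_card_centralizer_nat_card_stabilizer,
    show (ConjClasses.mk z).carrier = ({x ∈ T | cz x = cz z} : Finset G) from Set.ext fun x => by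
      rw [ConjClasses.mem_carrier_iff_mk_eq, ConjClasses.mk_eq_mk_iff_isConj, mem_coe, mem_filter]
      exact ⟨fun e => ⟨hT z hz x e.symm, cz_of_isConj e⟩, fun e => h _ _ e.2⟩,
    Set.ncard_coe_finset] at h2
  have h3 : (cz z : ℚ) ≠ 0 := by exact_mod_cast (cz_pos z).ne'
  rw [mul_one_div, eq_div_iff h3]
  exact_mod_cast h2

theorem h1 (h : DC G) : ∑ c ∈ (univ : Finset G).image cz, (1 / c : ℚ) = 1 := by
  have k := h0 h univ fun _ _ _ _ => mem_univ _
  rw [card_univ, ← Nat.card_eq_fintype_card] at k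
  exact (left_eq_mul₀ (by exact_mod_cast Nat.card_pos.ne')).1 k

theorem add_lt {k : ℕ} {B : ℚ} {A R : Finset ℕ}
    (h : ∀ A : Finset ℕ, (∀ n ∈ A, Sm k n) → ∑ n ∈ A, (1 / n : ℚ) < B) (hA : ∀ n ∈ A, Sm k n)
    (hR : ∀ n ∈ R, Sm k n) (hd : ∀ n ∈ A, n ∉ R) :
    ∑ n ∈ A, (1 / n : ℚ) + ∑ n ∈ R, (1 / n : ℚ) < B := by
  rw [← sum_union (disjoint_left.2 hd)]
  exact h _ fun n hn => (mem_union.1 hn).elim (hA n) (hR n)

theorem sm_cz {k : ℕ} (h : PrLe k G) : ∀ n ∈ (univ : Finset G).image cz, Sm k n := fun n hn => by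
  obtain ⟨x, -, rfl⟩ := mem_image.1 hn
  exact ⟨(cz_pos x).ne', fun q hq e => h q hq (e.trans (cz_dvd x))⟩

end Harm

open Harm in
theorem wHarm : WHarm.{u} := by
  intro G _ _ h
  have := Fintype.ofFinite G
  classical
  refine ⟨fun hp hc => ?_, fun hp hc => ?_, fun M hM hc => ?_⟩
  · have k := add_lt (R := {1, 2, 3, 4}) b3 (sm_cz hp)
      (fun n hn => by fin_cases hn <;> exact sm_of (by norm_num) (by decide)) fun n hn e => by
        obtain ⟨x, -, rfl⟩ := mem_image.1 hn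
        have := hc x
        simp only [mem_insert, mem_singleton] at e
        omega
    rw [h1 h] at k
    norm_num at k
  · have k := add_lt (R := {1, 2, 3, 4, 5, 6, 10, 15, 20, 30, 40, 45, 60}) b5 (sm_cz hp)
      (fun n hn => by fin_cases hn <;> exact sm_of (by norm_num) (by decide +kernel)) fun n hn e => by
        obtain ⟨x, -, rfl⟩ := mem_image.1 hn
        have := hc x
        simp only [mem_insert, mem_singleton] at e
        omega
    rw [h1 h] at k
    norm_num at k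
  · have hn := M.normal_of_index_eq_two hM
    have k0 := h0 h {y | y ∉ M} fun x hx y e => by
      obtain ⟨g, rfl⟩ := isConj_iff.1 e
      exact mem_filter.2 ⟨mem_univ _, fun k => (mem_filter.1 hx).2
        (by simpa [mul_assoc] using hn.conj_mem _ k g⁻¹)⟩
    have k := add_lt (A := ({y | y ∉ M} : Finset G).image cz) (R := {1, 2}) b2 (fun n hn => by
        obtain ⟨x, hx, rfl⟩ := mem_image.1 hn
        obtain ⟨j, -, e⟩ := hc x (mem_filter.1 hx).2
        exact ⟨(cz_pos x).ne', fun q hq k =>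
          Nat.le_of_dvd two_pos (hq.dvd_of_dvd_pow (e ▸ k))⟩)
      (fun n hn => by fin_cases hn <;> exact sm_of (by norm_num) (by decide)) fun n hn e => by
        obtain ⟨x, hx, rfl⟩ := mem_image.1 hn
        obtain ⟨j, hj, e'⟩ := hc x (mem_filter.1 hx).2
        have := Nat.pow_le_pow_right two_pos hj
        simp only [mem_insert, mem_singleton] at e
        omega
    have k1 := card_filter_add_card_filter_not (s := (univ : Finset G)) (· ∈ M)
    have k2 := M.card_mul_index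
    rw [hM, Nat.card_eq_fintype_card, Fintype.card_subtype] at k2
    rw [card_univ, ← Nat.card_eq_fintype_card] at k1
    have k3 : (2 * #{y : G | y ∉ M} : ℚ) = Nat.card G := by exact_mod_cast (by omega)
    have k4 : (0 : ℚ) < Nat.card G := by exact_mod_cast Nat.card_pos
    norm_num at k
    simp only [one_div] at k0
    nlinarith

end Cfsg.Lib.DCS
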