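import Cfsg.Agent.DCS.Cen
import Cfsg.Agent.DCS.Harm

/-! Tower DCS: from the symplectic modules to centralizer orders. -/

set_option autoImplicit false

namespace Cfsg.Lib.DCS

open Subgroup Cfsg.Lib.Solv Module

universe u

namespace Big

theorem pow_left {G : Type*} [Group G] {m n : ℕ} (h : m.Coprime n) :
    ∃ i : ℕ, ∀ a b : G, Commute a b → a ^ m = 1 → b ^ n = 1 → (a * b) ^ i = a := by
  obtain ⟨i, h1, h2⟩ := Nat.chineseRemainder h 1 0
  refine ⟨i, fun a b hc ha hb => ?_⟩
  rw [hc.mul_pow, pow_eq_pow_of_modEq h1 ha, pow_eq_pow_of_modEq h2 hb, pow_one, pow_zero, mul_one]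

theorem parts {G : Type*} [Group G] {m n : ℕ} (h : m.Coprime n) {a b a' b' g : G}
    (hc : Commute a b) (hc' : Commute a' b') (ha : a ^ m = 1) (hb : b ^ n = 1) (ha' : a' ^ m = 1)
    (hb' : b' ^ n = 1) (e : g * (a * b) * g⁻¹ = a' * b') : g * a * g⁻¹ = a' ∧ g * b * g⁻¹ = b' := by
  obtain ⟨i, hi⟩ := pow_left (G := G) h
  have h1 : g * a * g⁻¹ = a' := by rw [← hi a b hc ha hb, ← conj_pow, e, hi a' b' hc' ha' hb']
  refine ⟨h1, mul_left_cancel (a := a') ?_⟩
  rw [← e, ← h1]; group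

variable {p : ℕ} {X V : Type*} [Group X] [AddCommGroup V] [Module (ZMod p) V] {ι : V → X}

theorem pow_p (h4 : ∀ v w, ι (v + w) = ι v * ι w) (v : V) : ι v ^ p = 1 := by
  let f : Multiplicative V →* X := MonoidHom.mk' (fun v => ι v.toAdd) fun a b => h4 _ _
  have : f (Multiplicative.ofAdd v ^ p) = f 1 := by
    rw [← ofAdd_nsmul, ← Nat.cast_smul_eq_nsmul (ZMod p), ZMod.natCast_self, zero_smul, ofAdd_zero]
  rwa [map_pow, map_one] at this

theorem card_dvd (h3 : Function.Injective ι) (h4 : ∀ v w, ι (v + w) = ι v * ι w) {Y : Type*}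
    [Group Y] (j : X →* Y) (hj : Function.Injective j) (D : Subgroup Y) (hD : ∀ v, j (ι v) ∈ D) :
    Nat.card V ∣ Nat.card D := by
  let f : Multiplicative V →* X := MonoidHom.mk' (fun v => ι v.toAdd) fun a b => h4 _ _
  exact card_dvd_of_injective (α := Multiplicative V)
    ((j.comp f).codRestrict D fun v => hD _) fun a b e => by
    have e' := congrArg Subtype.val e
    exact Multiplicative.toAdd.injective (h3 (hj e'))

theorem two_ne [Fact (Nat.Prime 5)] : (2 : ZMod 5) ≠ 0 := fun h => by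
  have : ((2 : ℕ) : ZMod 5) = 0 := h
  rw [ZMod.natCast_eq_zero_iff] at this
  norm_num at this

/-- the stabilizer of a vector -/
def stab (ρ : X →* End (ZMod p) V) (v : V) : Subgroup X where
  carrier := {g | ρ g v = v}
  one_mem' := by simp
  mul_mem' {a b} ha hb := by
    change ρ (a * b) v = v
    rw [map_mul, End.mul_apply, hb, ha]
  inv_mem' {a} ha := by
    change ρ a⁻¹ v = v
    conv_lhs => rw [← show ρ a v = v from ha, ← End.mul_apply, ← map_mul, inv_mul_cancel, map_one,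
      End.one_apply]

theorem fix_iff {ρ : X →* End (ZMod p) V} (h3 : Function.Injective ι)
    (h5 : ∀ g v, ι (ρ g v) = g * ι v * g⁻¹) (g : X) (v : V) : ρ g v = v ↔ ι v * g = g * ι v := by
  rw [← h3.eq_iff, h5, mul_inv_eq_iff_eq_mul, eq_comm]

end Big

open Big

theorem wBig (hN : WNorm.{u}) (hC : WCen.{u}) (hL : WLin7.{u}) : WBig.{u} := by
  intro G _ _ hs hD p hp hd
  by_contra hp5
  have h7 : 7 ≤ p := by
    have : p ≠ 6 := by rintro rfl; norm_num at hp
    omega
  have := Fact.mk hp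
  have e : centralizer ({1} : Set G) = ⊤ := by ext; simp [mem_centralizer_iff]
  obtain ⟨V, _, _, _, ρ, B, ι, h1, h2, h3, h4, h5, h6⟩ := HasSp.of_equiv
    ((MulEquiv.subgroupCongr e).trans topEquiv).symm
    (hC p (by omega) hs hD.rat 1 (by simpa using hp.ne_one) (by rwa [cz_one]))
  have : Finite V := Finite.of_injective ι h3
  let σ : G ⧸ ρ.ker →* End (ZMod p) V := QuotientGroup.lift _ ρ le_rfl
  have hsj := QuotientGroup.mk'_surjective ρ.ker
  refine hL p σ B h7 (fun q hq hd => ?_) (hD.rat.of_surjective _ hsj)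
    ⟨fun g => ?_, h1.ndl, h1.ndr⟩ h2 fun v v' h => ?_
  · by_contra h3'
    have q5 : 5 ≤ q := by
      have : q ≠ 4 := by rintro rfl; norm_num at hq
      omega
    have := Fact.mk hq
    obtain ⟨Q⟩ : Nonempty (Sylow q G) := inferInstance
    refine Q.not_dvd_index (hd.trans (index_dvd_of_le (H := (Q : Subgroup G)) (K := ρ.ker)
      fun g hg => ?_))
    rw [MonoidHom.mem_ker]
    by_cases hqp : q = p
    · subst hqp
      obtain ⟨k, hk⟩ := Q.isPGroup' ⟨g, hg⟩
      exact h6 g k (congrArg Subtype.val hk)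
    obtain ⟨P⟩ : Nonempty (Sylow p G) := inferInstance
    have hP := hN p (by omega) hs hD.rat P
    have hQ := hN q q5 hs hD.rat Q
    ext v
    exact (fix_iff h3 h5 g v).2 (commute_of_normal_of_disjoint _ _ hP hQ
      (IsPGroup.disjoint_of_ne p q (Ne.symm hqp) _ _ P.isPGroup' Q.isPGroup') _ _
      (Cen.mem_sylow P (k := 1) (by rw [pow_one, pow_p h4])) hg)
  · obtain ⟨g, rfl⟩ := hsj g
    exact h1.inv g
  · have k1 : ∀ v, (stab σ v).comap (QuotientGroup.mk' ρ.ker) = centralizer {ι v} := fun v => by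
      ext g
      rw [mem_cent, ← fix_iff h3 h5]; rfl
    have k2 : (stab σ v).index = (stab σ v').index := by
      apply Nat.eq_of_mul_eq_mul_left (Nat.card_pos (α := stab σ v))
      rw [card_mul_index, show Nat.card (stab σ v) = Nat.card (stab σ v') from h, card_mul_index]
    rw [← index_comap_of_surjective _ hsj, ← index_comap_of_surjective _ hsj, k1, k1] at k2
    have k3 : cz (ι v) = cz (ι v') := by
      apply Nat.eq_of_mul_eq_mul_right (Nat.pos_of_ne_zero (index_ne_zero_of_finite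
        (H := centralizer ({ι v} : Set G))))
      rw [cz, cz, card_mul_index, k2, card_mul_index]
    obtain ⟨g, hg⟩ := isConj_iff.1 (hD _ _ k3)
    exact ⟨QuotientGroup.mk' _ g, h3 ((h5 g v).trans hg)⟩

theorem wOk5 (hC : WCen.{u}) (hS : WSL25.{u}) : WOk5.{u} := by
  intro G _ _ hs hD x
  have : Fact (Nat.Prime 5) := ⟨by norm_num⟩
  by_cases h5 : 5 ∣ cz x
  swap
  · exact ⟨fun h => absurd h h5, fun h => h5 (by rw [h]; norm_num),
      fun h => h5 (by rw [h]; norm_num), fun h => h5 (by rw [h]; norm_num)⟩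
  obtain ⟨k, m, hm, ho⟩ := Nat.exists_eq_pow_mul_and_not_dvd (orderOf_pos x).ne' 5 (by norm_num)
  let b := x ^ 5 ^ k
  have hb : b ^ m = 1 := by rw [← pow_mul, ← ho, pow_orderOf_eq_one]
  have hco : (5 ^ k).Coprime m := ((Nat.Prime.coprime_iff_not_dvd (by norm_num)).2 hm).pow_left k
  have hle : centralizer ({x} : Set G) ≤ centralizer {b} := fun y hy =>
    mem_cent.2 ((show Commute x y from mem_cent.1 hy).pow_left _)
  have hob : ¬ 5 ∣ orderOf b := fun h => hm (h.trans (orderOf_dvd_of_pow_eq_one hb))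
  obtain ⟨V, _, _, _, ρ, B, ι, h1, h2, h3, h4, h5', h6⟩ :=
    hC 5 le_rfl hs hD.rat b hob (h5.trans (card_dvd_of_le hle))
  have : Finite V := Finite.of_injective ι h3
  have hx : x ∈ centralizer ({b} : Set G) := hle (mem_cent.2 rfl)
  have hbb : b ∈ centralizer ({b} : Set G) := mem_cent.2 rfl
  have r1 : ρ ⟨x, hx⟩ = 1 := by
    have e1 : ρ.toHomUnits ⟨x, hx⟩ ^ m = 1 := by
      rw [← map_pow]
      exact Units.ext (h6 _ k (Subtype.ext (by
        change (x ^ m) ^ 5 ^ k = 1
        rw [← pow_mul, mul_comm, ← ho, pow_orderOf_eq_one])))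
    have e2 : ρ.toHomUnits ⟨x, hx⟩ ^ 5 ^ k = 1 := by
      rw [← map_pow]
      refine Units.ext (LinearMap.ext fun v => (fix_iff h3 h5' ⟨b, hbb⟩ v).2 ?_)
      exact Subtype.ext (mem_cent.1 (ι v).2).symm
    have := (pow_gcd_eq_one.2 ⟨e2, e1⟩)
    rw [hco.gcd_eq_one, pow_one] at this
    exact congrArg Units.val this
  have d1 : Nat.card V ∣ cz x := card_dvd h3 h4 (Subgroup.subtype _) (subtype_injective _) _ fun v =>
    mem_cent.2 (congrArg Subtype.val ((fix_iff h3 h5' ⟨x, hx⟩ v).1 (by rw [r1]; rfl))).symm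
  obtain ⟨d, hd⟩ := even_finrank (K := ZMod 5) two_ne B h1.ndl h2
  have hd0 : 0 < finrank (ZMod 5) V := finrank_pos
  have d2 : Nat.card V = 25 ^ d := by
    rw [Module.natCard_eq_pow_finrank (K := ZMod 5), Nat.card_zmod, hd, ← two_mul, pow_mul]
    norm_num
  have key : ¬ cz x ∣ 100 := by
    intro h
    have d3 : d = 1 := by
      by_contra h'
      have : 25 ^ 2 ∣ 100 := ((pow_dvd_pow 25 (by omega)).trans (d2 ▸ d1)).trans h
      norm_num at this
    have b4 : b ^ 4 = 1 := by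
      have : orderOf b ∣ 25 * 4 := (orderOf_dvd_cz (Commute.pow_right rfl _)).trans h
      refine orderOf_dvd_iff_pow_eq_one.1 (Nat.Coprime.dvd_of_dvd_mul_left ?_ this)
      exact (((Nat.Prime.coprime_iff_not_dvd (by norm_num)).2 hob).pow_left 2).symm
    have i5 : ∀ v, (ι v : G) ^ 5 = 1 := fun v => congrArg Subtype.val (pow_p h4 v)
    have ic : ∀ v, Commute b (ι v : G) := fun v => mem_cent.1 (ι v).2
    refine hS ρ B (by rw [d2, d3]; norm_num) h1 h2 h6 (fun v v' h => ?_) fun g j hg => ?_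
    · have k1 : ∀ v, Nat.card {g // ρ g v = v} = cz (b * ι v) := fun v => by
        refine Nat.card_congr ⟨fun g => ⟨g.1.1, mem_cent.2 ?_⟩, fun g => ⟨⟨g.1, mem_cent.2 ?_⟩, ?_⟩,
          fun _ => rfl, fun _ => rfl⟩
        · exact Commute.mul_left (mem_cent.1 g.1.2)
            (congrArg Subtype.val ((fix_iff h3 h5' _ v).1 g.2))
        · have := (parts (g := g.1) (show Nat.Coprime 4 5 by norm_num) (ic v) (ic v) b4 (i5 v) b4
            (i5 v) (by rw [← mem_cent.1 g.2, mul_inv_cancel_right])).1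
          rw [← mul_inv_eq_iff_eq_mul.1 this]
        · have := (parts (g := g.1) (show Nat.Coprime 4 5 by norm_num) (ic v) (ic v) b4 (i5 v) b4
            (i5 v) (by rw [← mem_cent.1 g.2, mul_inv_cancel_right])).2
          exact (fix_iff h3 h5' _ v).2 (Subtype.ext (mul_inv_eq_iff_eq_mul.1 this).symm)
      obtain ⟨g, hg⟩ := isConj_iff.1 (hD _ _ ((k1 v).symm.trans (h.trans (k1 v'))))
      obtain ⟨e1, e2⟩ := parts (show Nat.Coprime 4 5 by norm_num) (ic v) (ic v') b4 (i5 v) b4
        (i5 v') hg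
      exact ⟨⟨g, mem_cent.2 (mul_inv_eq_iff_eq_mul.1 e1).symm⟩, h3 ((h5' _ v).trans
        (Subtype.ext e2))⟩
    · have hg' : (g : G) ^ 3 ^ j = 1 := congrArg Subtype.val hg
      have hp := orderOf_pos (g : G)
      obtain ⟨y, e1, e2⟩ := hD.rat.mix (mem_cent.1 g.2) (k := orderOf (g : G) - 1)
        (Nat.Coprime.coprime_dvd_left (orderOf_dvd_of_pow_eq_one b4)
          (Nat.Coprime.coprime_dvd_right (orderOf_dvd_of_pow_eq_one hg')
            (Nat.Coprime.pow_right j (by norm_num))))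
        (by rw [show orderOf (g : G) = orderOf (g : G) - 1 + 1 by omega]; simp)
      refine isConj_iff.2 ⟨⟨y, mem_cent.2 e1.symm⟩, Subtype.ext (e2.trans ?_)⟩
      rw [InvMemClass.coe_inv, eq_inv_iff_mul_eq_one, ← pow_succ, Nat.sub_add_cancel hp,
        pow_orderOf_eq_one]
  refine ⟨fun _ => (dvd_pow_self 25 (by omega)).trans (d2 ▸ d1), fun h => key ?_, fun h => key ?_,
    fun h => key ?_⟩ <;> rw [h] <;> norm_num

open Finset Harm in
theorem bud {G : Type u} [Group G] [Finite G] (h : DC G) (hp : PrLe 5 G)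
    (hc : ∀ x : G, 4 < cz x ∧ Ok5 (cz x)) : False := by
  have := Fintype.ofFinite G
  classical
  have k := add_lt (R := {1, 2, 3, 4, 25, 50, 100} ∪
      (range 8 ×ˢ range 6).image fun q => 5 * 2 ^ q.1 * 3 ^ q.2) b5 (sm_cz hp)
    (fun n hn => by
      rcases mem_union.1 hn with hn | hn
      · fin_cases hn <;> exact sm_of (by norm_num) (by decide +kernel)
      · obtain ⟨q, -, rfl⟩ := mem_image.1 hn
        refine ⟨by positivity, fun r hr e => ?_⟩
        rcases (Nat.Prime.dvd_mul hr).1 e with e | e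
        · rcases (Nat.Prime.dvd_mul hr).1 e with e | e
          · exact Nat.le_of_dvd (by norm_num) e
          · exact (Nat.le_of_dvd two_pos (hr.dvd_of_dvd_pow e)).trans (by norm_num)
        · exact (Nat.le_of_dvd three_pos (hr.dvd_of_dvd_pow e)).trans (by norm_num))
    fun n hn e => by
      obtain ⟨x, -, rfl⟩ := mem_image.1 hn
      obtain ⟨c1, c2, c3, c4, c5⟩ := hc x
      rcases mem_union.1 e with e | e
      · simp only [mem_insert, mem_singleton] at e
        omega
      · have : ∀ n ∈ (range 8 ×ˢ range 6).image fun q : ℕ × ℕ => 5 * 2 ^ q.1 * 3 ^ q.2,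
          5 ∣ n ∧ ¬ 25 ∣ n := by decide +kernel
        exact (this _ e).2 (c2 (this _ e).1)
  rw [h1 h] at k
  revert k
  decide +kernel

end Cfsg.Lib.DCS
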