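import Cfsg.Agent.DCS.Asm
import Cfsg.Agent.Solv.ElemAb
import Cfsg.Agent.Solv.MinNormal

/-! Tower DCS (S4162), short route through invariant forms: statements and assembly. -/

set_option autoImplicit false

namespace Cfsg.Lib.DCS

open Subgroup Cfsg.Lib.Solv

universe u

/-- a nondegenerate invariant bilinear form -/
structure IsForm {K H V : Type*} [Field K] [Group H] [AddCommGroup V] [Module K V]
    (ρ : H →* Module.End K V) (B : V →ₗ[K] V →ₗ[K] K) : Prop where
  inv : ∀ g v w, B (ρ g v) (ρ g w) = B v w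
  ndl : ∀ v, (∀ w, B v w = 0) → v = 0
  ndr : ∀ w, (∀ v, B v w = 0) → w = 0

/-- `X` has a nontrivial normal elementary abelian `p`-subgroup `ι V`, centralised by all
`p`-elements, with an invariant symplectic form -/
def HasSp (p : ℕ) [Fact p.Prime] (X : Type u) [Group X] : Prop :=
  ∃ (V : Type u) (_ : AddCommGroup V) (_ : Module (ZMod p) V) (_ : Nontrivial V)
    (ρ : X →* Module.End (ZMod p) V) (B : V →ₗ[ZMod p] V →ₗ[ZMod p] ZMod p) (ι : V → X),
    IsForm ρ B ∧ (∀ v, B v v = 0) ∧ Function.Injective ι ∧ (∀ v w, ι (v + w) = ι v * ι w) ∧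
    (∀ g v, ι (ρ g v) = g * ι v * g⁻¹) ∧ ∀ (g : X) (k : ℕ), g ^ p ^ k = 1 → ρ g = 1

/-- the admissible centralizer orders as far as the prime 5 is concerned -/
def Ok5 (n : ℕ) : Prop := (5 ∣ n → 25 ∣ n) ∧ n ≠ 25 ∧ n ≠ 50 ∧ n ≠ 100

/-- minimal normal subgroups of real groups carry invariant forms -/
def WForm : Prop := ∀ (p : ℕ) [Fact p.Prime] {G : Type u} [Group G] [Finite G],
  (∀ g : G, IsConj g g⁻¹) → ∀ (N : Subgroup G) [N.Normal] [ElemAb p N], IsMinNormal N →
  ∃ B, IsForm (Vec.rep p (MulAut.conjNormal : G →* MulAut N)) B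

/-- Sylow `p`-subgroups of rational solvable groups are normal for `p ≥ 5` -/
def WNorm : Prop := ∀ (p : ℕ) [Fact p.Prime] {G : Type u} [Group G] [Finite G], 5 ≤ p →
  Group.IsSolvable G → Rat G → ∀ P : Sylow p G, (P : Subgroup G).Normal

/-- the symplectic module inside the centralizer of a `p'`-element -/
def WCen : Prop := ∀ (p : ℕ) [Fact p.Prime] {G : Type u} [Group G] [Finite G], 5 ≤ p →
  Group.IsSolvable G → Rat G → ∀ x : G, ¬ p ∣ orderOf x → p ∣ cz x →
  HasSp p (centralizer ({x} : Set G))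

/-- the linear lemma for `p ≥ 7` -/
def WLin7 : Prop := ∀ (p : ℕ) [Fact p.Prime] {H V : Type u} [Group H] [Finite H] [AddCommGroup V]
  [Module (ZMod p) V] [Finite V] [Nontrivial V] (ρ : H →* Module.End (ZMod p) V)
  (B : V →ₗ[ZMod p] V →ₗ[ZMod p] ZMod p), 7 ≤ p → PrLe 3 H → Rat H → IsForm ρ B →
  (∀ v, B v v = 0) → DCV ρ → False

/-- the linear lemma for `p = 5` -/
def WSL25 : Prop := ∀ [Fact (Nat.Prime 5)] {H V : Type u} [Group H] [Finite H] [AddCommGroup V]
  [Module (ZMod 5) V] (ρ : H →* Module.End (ZMod 5) V) (B : V →ₗ[ZMod 5] V →ₗ[ZMod 5] ZMod 5),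
  Nat.card V = 25 → IsForm ρ B → (∀ v, B v v = 0) →
  (∀ (g : H) (k : ℕ), g ^ 5 ^ k = 1 → ρ g = 1) → DCV ρ →
  (∀ (g : H) (k : ℕ), g ^ 3 ^ k = 1 → IsConj g g⁻¹) → False

/-- no prime divisor `p ≥ 7` -/
def WBig : Prop := ∀ {G : Type u} [Group G] [Finite G], Group.IsSolvable G → DC G → PrLe 5 G

/-- the prime 5 -/
def WOk5 : Prop := ∀ {G : Type u} [Group G] [Finite G], Group.IsSolvable G → DC G →
  ∀ x : G, Ok5 (cz x)

/-- harmonic sums -/
def WBud : Prop := ∀ {G : Type u} [Group G] [Finite G] [Nontrivial G], DC G → PrLe 5 G →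
  (∀ x : G, Ok5 (cz x)) → (∀ x : G, cz x ≠ 2) →
  (∀ x : G, cz x ≠ 3) ∧ (∃ x : G, cz x = 4) ∧
    (¬ 16 ∣ Nat.card G → (∃ x : G, cz x = 6) ∧ (∃ x : G, cz x = 8) ∧ ∃ x : G, cz x = 9)

/-- a centralizer of order 4 in a rational group -/
def WSyl8 : Prop := ∀ {G : Type u} [Group G] [Finite G], Rat G → ∀ x : G, cz x = 4 →
  ¬ 16 ∣ Nat.card G

/-- centralizers of orders 4, 6, 8, 9 -/
def WFin : Prop := ∀ {G : Type u} [Group G] [Finite G], Group.IsSolvable G → DC G →
  ¬ 16 ∣ Nat.card G → ∀ x w z y : G, cz x = 4 → cz w = 6 → cz z = 8 → cz y = 9 → False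

theorem main2 (hBig : WBig.{u}) (hOk : WOk5.{u}) (hBud : WBud.{u}) (h8 : WSyl8.{u})
    (hFin : WFin.{u}) (hTwo : WTwo.{u})
    {G : Type u} [Group G] [Finite G] [Nontrivial G] (hs : Group.IsSolvable G) (hD : DC G) :
    Nonempty (G ≃* Equiv.Perm (Fin 3)) := by
  by_contra hn
  obtain ⟨-, ⟨x, hx⟩, h⟩ := hBud hD (hBig hs hD) (hOk hs hD) fun x hx => hn (hTwo hD x hx)
  have h16 := h8 hD.rat x hx
  obtain ⟨⟨w, hw⟩, ⟨z, hz⟩, y, hy⟩ := h h16
  exact hFin hs hD h16 x w z y hx hw hz hy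

/-- `HasSp` is invariant under isomorphism -/
theorem HasSp.of_equiv {p : ℕ} [Fact p.Prime] {X Y : Type u} [Group X] [Group Y] (e : X ≃* Y)
    (h : HasSp p Y) : HasSp p X := by
  obtain ⟨V, _, _, _, ρ, B, ι, h1, h2, h3, h4, h5, h6⟩ := h
  refine ⟨V, _, _, ‹_›, ρ.comp e.toMonoidHom, B, fun v => e.symm (ι v),
    ⟨fun g => h1.inv (e g), h1.ndl, h1.ndr⟩, h2, e.symm.injective.comp h3,
    fun v w => by simp only [h4, map_mul], fun g v => ?_, fun g k hg => h6 (e g) k ?_⟩
  · apply e.injective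
    simp [h5]
  · rw [← map_pow, hg, map_one]

section fix

variable {K H V : Type*} [Field K] [Group H] [AddCommGroup V] [Module K V]
  {ρ : H →* Module.End K V} {B : V →ₗ[K] V →ₗ[K] K}

/-- averaging: a vector fixed by `J` and orthogonal to the fixed space of `J` vanishes -/
theorem IsForm.fix_left (h : IsForm ρ B) (J : Subgroup H) [Finite J]
    (hJ : (Nat.card J : K) ≠ 0) {v : V} (hv : ∀ g ∈ J, ρ g v = v)
    (h0 : ∀ w, (∀ g ∈ J, ρ g w = w) → B v w = 0) : v = 0 := by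
  classical
  have := Fintype.ofFinite J
  refine h.ndl v fun w => ?_
  have h1 := h0 (∑ g : J, ρ g w) fun k hk => by
    rw [map_sum]
    refine Fintype.sum_equiv (Equiv.mulLeft (⟨k, hk⟩ : J)) _ _ fun g => ?_
    simp [← Module.End.mul_apply, ← map_mul]
  have h2 : ∀ g : J, B v (ρ g w) = B v w := fun g => by
    conv_lhs => rw [← hv g g.2, h.inv]
  simp only [map_sum, h2, Finset.sum_const, Finset.card_univ, nsmul_eq_mul,
    ← Nat.card_eq_fintype_card] at h1
  exact (mul_eq_zero.1 h1).resolve_left hJ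

theorem IsForm.flip (h : IsForm ρ B) : IsForm ρ B.flip :=
  ⟨fun g v w => h.inv g w v, h.ndr, h.ndl⟩

theorem IsForm.fix_right (h : IsForm ρ B) (J : Subgroup H) [Finite J]
    (hJ : (Nat.card J : K) ≠ 0) {v : V} (hv : ∀ g ∈ J, ρ g v = v)
    (h0 : ∀ w, (∀ g ∈ J, ρ g w = w) → B w v = 0) : v = 0 :=
  h.flip.fix_left J hJ hv h0

theorem IsForm.adj (h : IsForm ρ B) (g : H) (v w : V) : B (ρ g v) w = B v (ρ g⁻¹ w) := by
  rw [← h.inv g v, ← Module.End.mul_apply, ← map_mul, mul_inv_cancel, map_one,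
    Module.End.one_apply]

/-- a scalar action `a` with `a ^ 2 ≠ 1` forces isotropy -/
theorem IsForm.isotropic (h : IsForm ρ B) {g : H} {v : V} {a : K} (ha : a * a ≠ 1)
    (hv : ρ g v = a • v) : B v v = 0 := by
  have h1 := h.inv g v v
  simp only [hv, map_smul, LinearMap.smul_apply, smul_eq_mul] at h1
  have : (a * a - 1) * B v v = 0 := by linear_combination h1
  exact (mul_eq_zero.1 this).resolve_left (sub_ne_zero.2 ha)

/-- a nondegenerate alternating form lives in even dimension -/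
theorem even_finrank [FiniteDimensional K V] (h2 : (2 : K) ≠ 0) (B : V →ₗ[K] V →ₗ[K] K)
    (hl : ∀ v, (∀ w, B v w = 0) → v = 0) (ha : ∀ v, B v v = 0) : Even (Module.finrank K V) := by
  classical
  have hs : ∀ v w, B v w = - B w v := fun v w => by
    have := ha (v + w)
    simp only [map_add, LinearMap.add_apply, ha] at this
    linear_combination this
  let b := Module.finBasis K V
  let M := LinearMap.BilinForm.toMatrix b B
  have hM : M.det ≠ 0 := by
    rw [← LinearMap.BilinForm.nondegenerate_iff_det_ne_zero b]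
    exact ⟨hl, fun w hw => hl w fun v => by rw [hs, hw v, neg_zero]⟩
  have ht : M.transpose = -M := by
    ext i j
    simp only [M, Matrix.transpose_apply, Matrix.neg_apply, LinearMap.BilinForm.toMatrix_apply]
    exact hs _ _
  by_contra hodd
  have h3 := Matrix.det_transpose M
  rw [ht, Matrix.det_neg, Fintype.card_fin, (Nat.not_even_iff_odd.1 hodd).neg_one_pow] at h3
  have : 2 * M.det = 0 := by linear_combination -h3
  exact hM ((mul_eq_zero.1 this).resolve_left h2)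

end fix

end Cfsg.Lib.DCS
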