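import Cfsg.Agent.DCS.Harm
import Cfsg.Agent.DCS.Plan2

/-! Tower DCS: harmonic budgets. -/

set_option autoImplicit false
set_option linter.unusedSectionVars false

namespace Cfsg.Lib.DCS

open Subgroup Finset Harm

universe u

namespace Bud

theorem gstep {P E : ℕ → Prop} {p : ℕ} {B C : ℚ} (hC0 : 0 ≤ C)
    (hB : ∀ A : Finset ℕ, (∀ n ∈ A, P n) → ∑ n ∈ A, (1 / n : ℚ) ≤ B)
    (hC : ∀ I : Finset ℕ, (∀ a ∈ I, E a) → ∑ a ∈ I, (1 / p : ℚ) ^ a ≤ C) (A : Finset ℕ)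
    (hA : ∀ n ∈ A, ∃ a m, E a ∧ P m ∧ n = p ^ a * m) : ∑ n ∈ A, (1 / n : ℚ) ≤ C * B := by
  choose! f g h0 h1 h2 using hA
  have k2 : A ⊆ (A.image f ×ˢ A.image g).image fun q => p ^ q.1 * q.2 := fun n hn =>
    mem_image.2 ⟨(f n, g n), mem_product.2 ⟨mem_image_of_mem f hn, mem_image_of_mem g hn⟩,
      (h2 n hn).symm⟩
  have k3 := hC (A.image f) fun m hm => by
    obtain ⟨n, hn, rfl⟩ := mem_image.1 hm
    exact h0 n hn
  have k4 := hB (A.image g) fun m hm => by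
    obtain ⟨n, hn, rfl⟩ := mem_image.1 hm
    exact h1 n hn
  calc _ ≤ _ := sum_le_sum_of_subset_of_nonneg k2 fun _ _ _ => by positivity
    _ ≤ ∑ q ∈ A.image f ×ˢ A.image g, (1 / (p ^ q.1 * q.2 : ℕ) : ℚ) :=
      sum_image_le_of_nonneg fun _ _ => by positivity
    _ = (∑ i ∈ A.image f, (1 / p : ℚ) ^ i) * ∑ n ∈ A.image g, (1 / n : ℚ) := by
      rw [sum_mul_sum, sum_product]
      refine sum_congr rfl fun i _ => sum_congr rfl fun n _ => ?_
      push_cast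
      rw [one_div_pow, div_mul_div_comm, one_mul]
    _ ≤ _ := mul_le_mul k3 k4 (sum_nonneg fun _ _ => by positivity) hC0

theorem geo {x : ℚ} (h0 : 0 ≤ x) (h1 : x < 1) (I : Finset ℕ) : ∑ a ∈ I, x ^ a ≤ (1 - x)⁻¹ := by
  refine (sum_le_sum_of_subset_of_nonneg (t := range (I.sup id + 1)) (fun a ha =>
    mem_range.2 (Nat.lt_succ_of_le (le_sup (f := id) ha))) fun _ _ _ => by positivity).trans ?_
  rw [← mul_le_mul_iff_left₀ (sub_pos.2 h1), geom_sum_mul_neg, inv_mul_cancel₀ (sub_pos.2 h1).ne']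
  exact sub_le_self _ (by positivity)

theorem e2 (I : Finset ℕ) (_ : ∀ a ∈ I, True) : ∑ a ∈ I, (1 / (2 : ℕ) : ℚ) ^ a ≤ 2 :=
  (geo (by norm_num) (by norm_num) I).trans (by norm_num)

theorem e3 (I : Finset ℕ) (_ : ∀ a ∈ I, True) : ∑ a ∈ I, (1 / (3 : ℕ) : ℚ) ^ a ≤ 3 / 2 :=
  (geo (by norm_num) (by norm_num) I).trans (by norm_num)

theorem e5 (I : Finset ℕ) (h : ∀ a ∈ I, a ≠ 1) : ∑ a ∈ I, (1 / (5 : ℕ) : ℚ) ^ a ≤ 21 / 20 := by
  have := geo (x := 1 / (5 : ℕ)) (by norm_num) (by norm_num) (insert 1 I)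
  rw [sum_insert fun k => h 1 k rfl] at this
  norm_num at this ⊢
  linarith

theorem e8 (I : Finset ℕ) (h : ∀ a ∈ I, a ≤ 3) : ∑ a ∈ I, (1 / (2 : ℕ) : ℚ) ^ a ≤ 15 / 8 :=
  (sum_le_sum_of_subset_of_nonneg (t := range 4) (fun a ha => mem_range.2 (Nat.lt_succ_of_le (h a ha)))
    fun _ _ _ => by positivity).trans (by norm_num [sum_range_succ])

theorem c5 (A : Finset ℕ) (h : ∀ n ∈ A, ∃ e m, e ≠ 1 ∧ Sm 1 m ∧ n = 5 ^ e * m) :
    ∑ n ∈ A, (1 / n : ℚ) ≤ 21 / 20 * 1 := gstep (by norm_num) b1 e5 A h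

theorem c35 (A : Finset ℕ) (h : ∀ n ∈ A, ∃ b k, True ∧ (∃ e m, e ≠ 1 ∧ Sm 1 m ∧ k = 5 ^ e * m) ∧
    n = 3 ^ b * k) : ∑ n ∈ A, (1 / n : ℚ) ≤ 3 / 2 * (21 / 20 * 1) := gstep (by norm_num) c5 e3 A h

/-- the admissible numbers -/
def Ad (n : ℕ) : Prop := Sm 5 n ∧ (5 ∣ n → 25 ∣ n)

theorem Ad_eq_1' : type_of% @Ad.eq_1 := @Ad.eq_1

theorem Ad.dec {n : ℕ} (h : Ad n) : ∃ a b e m, e ≠ 1 ∧ Sm 1 m ∧ n = 2 ^ a * (3 ^ b * (5 ^ e * m)) := by
  obtain ⟨⟨h0, h1⟩, h2⟩ := h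
  obtain ⟨a, m, k1, rfl⟩ := Nat.exists_eq_pow_mul_and_not_dvd h0 2 (by norm_num)
  replace h0 := right_ne_zero_of_mul h0
  obtain ⟨b, m, k2, rfl⟩ := Nat.exists_eq_pow_mul_and_not_dvd h0 3 (by norm_num)
  replace h0 := right_ne_zero_of_mul h0
  obtain ⟨e, m, k3, rfl⟩ := Nat.exists_eq_pow_mul_and_not_dvd h0 5 (by norm_num)
  refine ⟨a, b, e, m, ?_, ⟨right_ne_zero_of_mul h0, fun q hq k => ?_⟩, rfl⟩
  · rintro rfl
    have k := h2 ⟨2 ^ a * (3 ^ b * m), by ring⟩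
    rw [show 2 ^ a * (3 ^ b * (5 ^ 1 * m)) = 5 * (2 ^ a * (3 ^ b * m)) by ring] at k
    have k' : 5 ∣ 2 ^ a * (3 ^ b * m) := Nat.dvd_of_mul_dvd_mul_left (by norm_num) k
    rcases (Nat.prime_five.dvd_mul).1 k' with k | k
    · exact absurd (Nat.prime_five.dvd_of_dvd_pow k) (by norm_num)
    rcases (Nat.prime_five.dvd_mul).1 k with k | k
    · exact absurd (Nat.prime_five.dvd_of_dvd_pow k) (by norm_num)
    · exact k3 k
  · have := h1 q hq (((k.mul_left _).mul_left _).mul_left _)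
    have q2 : q ≠ 2 := fun e => k1 (e ▸ (k.mul_left _).mul_left _)
    have q3 : q ≠ 3 := fun e => k2 (e ▸ k.mul_left _)
    have q4 : q ≠ 4 := by rintro rfl; norm_num at hq
    have q5 : q ≠ 5 := fun e => k3 (e ▸ k)
    omega

theorem bA (A : Finset ℕ) (h : ∀ n ∈ A, Ad n) : ∑ n ∈ A, (1 / n : ℚ) ≤ 63 / 20 :=
  (gstep (by norm_num) c35 e2 A fun n hn => by
    obtain ⟨a, b, e, m, h1, h2, h3⟩ := (h n hn).dec
    exact ⟨a, _, trivial, ⟨b, _, trivial, ⟨e, m, h1, h2, rfl⟩, rfl⟩, h3⟩).trans (by norm_num)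

theorem bB (A : Finset ℕ) (h : ∀ n ∈ A, Ad n ∧ ¬ 3 ∣ n) : ∑ n ∈ A, (1 / n : ℚ) ≤ 21 / 10 :=
  (gstep (by norm_num) c5 e2 A fun n hn => by
    obtain ⟨a, b, e, m, h1, h2, h3⟩ := (h n hn).1.dec
    obtain rfl : b = 0 := by_contra fun k =>
      (h n hn).2 (h3 ▸ ((dvd_pow_self 3 k).mul_right _).mul_left _)
    exact ⟨a, _, trivial, ⟨e, m, h1, h2, rfl⟩, by simpa using h3⟩).trans (by norm_num)

theorem bC (A : Finset ℕ) (h : ∀ n ∈ A, Ad n ∧ ¬ 16 ∣ n) : ∑ n ∈ A, (1 / n : ℚ) ≤ 189 / 64 :=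
  (gstep (by norm_num) c35 e8 A fun n hn => by
    obtain ⟨a, b, e, m, h1, h2, h3⟩ := (h n hn).1.dec
    exact ⟨a, _, not_lt.1 fun k => (h n hn).2 (h3 ▸ (pow_dvd_pow 2 k).mul_right _),
      ⟨b, _, trivial, ⟨e, m, h1, h2, rfl⟩, rfl⟩, h3⟩).trans (by norm_num)

theorem add_le {P : ℕ → Prop} {B : ℚ} {A R : Finset ℕ}
    (h : ∀ A : Finset ℕ, (∀ n ∈ A, P n) → ∑ n ∈ A, (1 / n : ℚ) ≤ B) (hA : ∀ n ∈ A, P n)
    (hR : ∀ n ∈ R, P n) (hd : ∀ n ∈ A, n ∉ R) :
    ∑ n ∈ A, (1 / n : ℚ) + ∑ n ∈ R, (1 / n : ℚ) ≤ B := by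
  rw [← sum_union (disjoint_left.2 hd)]
  exact h _ fun n hn => (mem_union.1 hn).elim (hA n) (hR n)

variable {G : Type u} [Group G] [Finite G] {x y : G}

theorem ne_card (h : DC G) (hy : y ≠ 1) : cz y ≠ Nat.card G := fun e =>
  hy (isConj_one_left.1 (h _ _ (e.trans cz_one.symm)))

theorem ne_one [Nontrivial G] (y : G) : cz y ≠ 1 := fun e => by
  have k := orderOf_dvd_cz (rfl : y * y = y * y)
  rw [e, Nat.dvd_one, orderOf_eq_one_iff] at k
  rw [k, cz_one] at e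
  exact Finite.one_lt_card.ne' e

theorem mem_zp (hx : cz x = 3) (h : x * y = y * x) (y1 : y ≠ 1) : x ∈ zpowers y := by
  have k : zpowers y ≤ centralizer {x} := zpowers_le.2 (mem_cent.2 h)
  rcases (Nat.dvd_prime Nat.prime_three).1 ((card_dvd_of_le k).trans hx.dvd) with e | e
  · exact absurd (zpowers_eq_bot.1 (eq_bot_of_card_eq _ e)) y1
  · rw [eq_of_le_of_card_ge k (hx.trans e.symm).le]
    exact mem_cent.2 rfl

theorem le_cent (h : x ∈ zpowers y) : centralizer ({y} : Set G) ≤ centralizer {x} := fun g hg => by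
  obtain ⟨i, rfl⟩ := h
  exact mem_cent.2 (Commute.zpow_left (mem_cent.1 hg) i)

theorem three_of_comm [Nontrivial G] (hx : cz x = 3) (h : x * y = y * x) (y1 : y ≠ 1) : cz y = 3 :=
  ((Nat.dvd_prime Nat.prime_three).1
    ((card_dvd_of_le (le_cent (mem_zp hx h y1))).trans hx.dvd)).resolve_left
    (ne_one y)

theorem three_of_dvd [Nontrivial G] (hx : cz x = 3) (x1 : x ≠ 1) (y1 : y ≠ 1) (h : 3 ∣ cz y) :
    cz y = 3 := by
  have := Fact.mk Nat.prime_three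
  have pg : ∀ t : G, orderOf t = 3 → IsPGroup 3 (zpowers t) := fun t e =>
    IsPGroup.of_card (n := 1) (by rw [Nat.card_zpowers, e, pow_one])
  obtain ⟨P, hP⟩ := (pg x (((Nat.dvd_prime Nat.prime_three).1 (hx ▸ orderOf_dvd_cz rfl)).resolve_left
    fun e => x1 (orderOf_eq_one_iff.1 e))).exists_le_sylow
  have xP := hP (mem_zpowers x)
  have : Nontrivial P := ⟨⟨x, xP⟩, 1, fun e => x1 (congrArg Subtype.val e)⟩
  obtain ⟨⟨z, hz⟩, z1⟩ := @exists_ne _ P.isPGroup'.center_nontrivial 1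
  have c : ∀ p ∈ P, (z : G) * p = p * z := fun p hp =>
    congrArg Subtype.val (mem_center_iff.1 hz ⟨p, hp⟩).symm
  have k := le_cent (mem_zp hx (c x xP).symm fun e => z1 (Subtype.ext (Subtype.ext e)))
  obtain ⟨t, ht⟩ := exists_prime_orderOf_dvd_card' 3 h
  rw [← orderOf_coe] at ht
  obtain ⟨Q, hQ⟩ := (pg t ht).exists_le_sylow
  obtain ⟨g, e⟩ := MulAction.exists_smul_eq G Q P
  have k1 : g * t * g⁻¹ ∈ P := e ▸ smul_mem_pointwise_smul _ (MulAut.conj g) _ (hQ (mem_zpowers _))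
  have k2 := three_of_comm hx (mem_cent.1 (k (mem_cent.2 (c _ k1)))) fun e => by
    rw [conj_eq_one_iff.1 e, orderOf_one] at ht
    omega
  exact three_of_comm (cz_conj g _ ▸ k2) (mem_cent.1 t.2).symm y1

end Bud

open Bud in
theorem wBud : WBud.{u} := by
  intro G _ _ _ h hp h5 h2
  have := Fintype.ofFinite G
  classical
  have ad : ∀ n ∈ (univ : Finset G).image cz, Ad n := fun n hn => ⟨sm_cz hp n hn, by
    obtain ⟨x, -, rfl⟩ := mem_image.1 hn
    exact (h5 x).1⟩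
  have h3 : ∀ x : G, cz x ≠ 3 := fun x hx => by
    have c3 : Nat.card G ≠ 3 := fun e => by
      obtain ⟨y, y1⟩ := exists_ne (1 : G)
      exact ((Nat.dvd_prime Nat.prime_three).1 (e ▸ cz_dvd y)).elim (ne_one y) (e ▸ ne_card h y1)
    have x1 : x ≠ 1 := fun e => c3 (by rw [← hx, e, cz_one])
    have k := add_le (A := {n ∈ (univ : Finset G).image cz | ¬ 3 ∣ n}) (R := {1, 2, 25, 50, 100}) bB
      (fun n hn => ⟨ad n (mem_filter.1 hn).1, (mem_filter.1 hn).2⟩)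
      (fun n hn => by
        fin_cases hn <;> exact ⟨⟨sm_of (by norm_num) (by decide +kernel), by norm_num⟩, by norm_num⟩)
      fun n hn e => by
        obtain ⟨y, -, rfl⟩ := mem_image.1 (mem_filter.1 hn).1
        have := And.intro (h5 y).2 (And.intro (h2 y) (ne_one y))
        simp only [mem_insert, mem_singleton] at e
        omega
    have k1 := sum_filter_add_sum_filter_not ((univ : Finset G).image cz) (3 ∣ ·)
      fun n => (1 / n : ℚ)
    have k2 : ∑ n ∈ (univ : Finset G).image cz with 3 ∣ n, (1 / n : ℚ) ≤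
        ∑ n ∈ {3, Nat.card G}, (1 / n : ℚ) :=
      sum_le_sum_of_subset_of_nonneg (fun n hn => by
        obtain ⟨y, -, rfl⟩ := mem_image.1 (mem_filter.1 hn).1
        by_cases y1 : y = 1
        · simp [y1, cz_one]
        · simp [three_of_dvd hx x1 y1 (mem_filter.1 hn).2]) fun _ _ _ => by positivity
    rw [h1 h] at k1
    rw [sum_pair c3.symm] at k2
    have k3 : Nat.card G < 8 := not_le.1 fun e => by
      have : (1 / Nat.card G : ℚ) ≤ 1 / 8 := one_div_le_one_div_of_le (by norm_num) (by exact_mod_cast e)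
      norm_num at k k1 k2 this
      linarith
    have k4 := hx ▸ cz_dvd x
    have k5 : Nat.card G = 6 := by have := Nat.card_pos (α := G); omega
    obtain ⟨t, ht⟩ := exists_prime_orderOf_dvd_card' (G := G) 2 (by rw [k5]; norm_num)
    have t1 := ne_card h (y := t) fun e => by rw [e, orderOf_one] at ht; omega
    have t2 := ht ▸ orderOf_dvd_cz (rfl : t * t = t * t)
    have t3 := k5 ▸ cz_dvd t
    have t4 := Nat.le_of_dvd (by norm_num) t3
    have t5 := h2 t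
    have t6 := cz_pos t
    rw [k5] at t1
    interval_cases cz t <;> omega
  have key : ¬ 16 ∣ Nat.card G → ∀ m, m = 6 ∨ m = 8 ∨ m = 9 → ∃ x : G, cz x = m :=
    fun h16 m hm => by_contra fun hn => by
      have k := add_le (A := (univ : Finset G).image cz) (R := {1, 2, 3, 25, 50, 100, m}) bC
        (fun n hn => ⟨ad n hn, fun e => by
          obtain ⟨y, -, rfl⟩ := mem_image.1 hn
          exact h16 (e.trans (cz_dvd y))⟩)
        (fun n hn => by
          rcases hm with rfl | rfl | rfl <;> fin_cases hn <;>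
            exact ⟨⟨sm_of (by norm_num) (by decide +kernel), by norm_num⟩, by norm_num⟩)
        fun n hn' e => by
          obtain ⟨y, -, rfl⟩ := mem_image.1 hn'
          have := And.intro (h5 y).2 (And.intro (h2 y) (And.intro (h3 y) (ne_one y)))
          have := not_exists.1 hn y
          simp only [mem_insert, mem_singleton] at e
          omega
      rw [h1 h] at k
      rcases hm with rfl | rfl | rfl <;> norm_num at k
  refine ⟨h3, by_contra fun hn => ?_, fun h16 => ⟨key h16 6 (by simp), key h16 8 (by simp),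
    key h16 9 (by simp)⟩⟩
  have k := add_le (A := (univ : Finset G).image cz) (R := {1, 2, 3, 4, 25, 50, 100}) bA ad
    (fun n hn => by fin_cases hn <;> exact ⟨sm_of (by norm_num) (by decide +kernel), by norm_num⟩)
    fun n hn' e => by
      obtain ⟨y, -, rfl⟩ := mem_image.1 hn'
      have := And.intro (h5 y).2 (And.intro (h2 y) (And.intro (h3 y) (ne_one y)))
      have := not_exists.1 hn y
      simp only [mem_insert, mem_singleton] at e
      omega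
  rw [h1 h] at k
  norm_num at k

end Cfsg.Lib.DCS
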