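import Cfsg.Agent.DCS.Form
import Cfsg.Agent.Solv.CoprimeFixed

/-! Tower DCS: the symplectic module inside the centralizer of a `p'`-element. -/

set_option autoImplicit false

namespace Cfsg.Lib.DCS

open Subgroup Cfsg.Lib.Solv Module

universe u

namespace Cen

theorem mem_sylow {p : ℕ} [Fact p.Prime] {G : Type*} [Group G] [Finite G] (P : Sylow p G)
    [(P : Subgroup G).Normal] {g : G} {k : ℕ} (hg : g ^ p ^ k = 1) : g ∈ P := by
  have h1 : IsPGroup p (zpowers g) := by
    rintro ⟨_, n, rfl⟩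
    refine ⟨k, Subtype.ext ?_⟩
    change (g ^ n) ^ p ^ k = 1
    rw [← zpow_natCast, ← zpow_mul, mul_comm, zpow_mul, zpow_natCast, hg, one_zpow]
  obtain ⟨Q, hQ⟩ := h1.exists_le_sylow
  have := Sylow.unique_of_normal P ‹_›
  rw [Subsingleton.elim P Q]
  exact hQ (mem_zpowers g)

theorem cent_zpowers {G : Type*} [Group G] (x : G) :
    centralizer (zpowers x : Set G) = centralizer {x} := by
  rw [zpowers_eq_closure, centralizer_closure]

end Cen

open Cen in
theorem wCen (hF : WForm.{u}) (hN : WNorm.{u}) : WCen.{u} := by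
  intro p hp G _ _ h5
  refine card_induction (P := fun G _ _ => Group.IsSolvable G → Rat G → ∀ x : G,
    ¬ p ∣ orderOf x → p ∣ cz x → HasSp p (centralizer ({x} : Set G))) ?_ G
  clear! G
  intro G _ _ ih hs hR x hx hpx
  obtain ⟨P⟩ : Nonempty (Sylow p G) := inferInstance
  have hP := hN p h5 hs hR P
  have hP0 : (P : Subgroup G) ≠ ⊥ := P.ne_bot_of_dvd_card (hpx.trans (cz_dvd x))
  have : Nontrivial P := (nontrivial_iff_ne_bot _).2 hP0
  let Z := (center P).map (P : Subgroup G).subtype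
  have hZ0 : Z ≠ ⊥ := fun h => P.isPGroup'.bot_lt_center.ne'
    ((map_eq_bot_iff_of_injective _ (subtype_injective _)).1 h)
  obtain ⟨N, hM, hNZ⟩ := exists_isMinNormal_le Z hZ0
  have := hM.normal
  have hNP : IsPGroup p N := P.isPGroup'.to_le (hNZ.trans (map_subtype_le _))
  obtain ⟨c1, c2⟩ := hM.elementary_of_isPGroup hNP
  have : ElemAb p N := ElemAb.of_subgroup c2
  by_cases hc : ∀ y ∈ N, x * y = y * x → y = 1
  · have hco : (Nat.card (zpowers x)).Coprime (Nat.card N) := by
      obtain ⟨k, hk⟩ := hNP.exists_card_eq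
      rw [hk, Nat.card_zpowers]
      exact ((Nat.Prime.coprime_iff_not_dvd hp.out).2 hx).symm.pow_right k
    have h1 := Coprime.map_mk'_centralizer (A := zpowers x) N hco (Or.inl inferInstance)
    rw [MonoidHom.map_zpowers, cent_zpowers, cent_zpowers] at h1
    let f : centralizer ({x} : Set G) →* centralizer ({QuotientGroup.mk' N x} : Set (G ⧸ N)) :=
      ((QuotientGroup.mk' N).comp (centralizer ({x} : Set G)).subtype).codRestrict _
        fun y => h1 ▸ mem_map_of_mem _ y.2
    have hf : Function.Bijective f := by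
      refine ⟨(injective_iff_map_eq_one f).2 fun y hy => ?_, fun y => ?_⟩
      · exact Subtype.ext (hc y ((QuotientGroup.eq_one_iff _).1 (congrArg Subtype.val hy))
          (mem_cent.1 y.2))
      · obtain ⟨z, hz, e⟩ : y.1 ∈ (centralizer ({x} : Set G)).map (QuotientGroup.mk' N) := by
          rw [h1]; exact y.2
        exact ⟨⟨z, hz⟩, Subtype.ext e⟩
    refine HasSp.of_equiv (MulEquiv.ofBijective f hf) (ih (G ⧸ N) (card_quotient_lt hM.ne_bot)
      inferInstance (hR.of_surjective _ (QuotientGroup.mk'_surjective N)) _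
      (fun h => hx (h.trans (orderOf_map_dvd _ x))) ?_)
    rwa [cz, ← Nat.card_eq_of_bijective f hf]
  push Not at hc
  obtain ⟨y0, hy0, hy1, hy2⟩ := hc
  obtain ⟨B, hB⟩ := hF p hR.real N hM
  set ρ := Vec.rep p (MulAut.conjNormal : G →* MulAut N) with hρ
  have hv : ∀ g v, ((Vec.toMul (ρ g v) : N) : G) = g * (Vec.toMul v : N) * g⁻¹ := fun _ _ => rfl
  have halt : ∀ v, B v v = 0 := fun v => by
    by_cases h0 : v = 0
    · simp [h0]
    have ho : orderOf ((Vec.toMul v : N) : G) = p := by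
      rw [orderOf_coe]; exact ElemAb.orderOf_eq h0
    obtain ⟨g, hg⟩ := isConj_iff.1 (hR ((Vec.toMul v : N) : G) 2 (by
      rw [ho]; exact (Nat.coprime_primes Nat.prime_two hp.out).2 (by omega)))
    refine hB.isotropic (g := g) (a := ((2 : ℕ) : ZMod p)) (fun h => ?_) ?_
    · have h3 : ((3 : ℕ) : ZMod p) = 0 := by push_cast at h ⊢; linear_combination h
      rw [ZMod.natCast_eq_zero_iff] at h3
      have := Nat.le_of_dvd (by norm_num) h3
      omega
    · apply Vec.toMul.injective
      apply Subtype.ext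
      rw [hv, hg, Vec.toMul_natCast_smul]; rfl
  let U : Submodule (ZMod p) (Vec p N) := LinearMap.eqLocus (ρ x) LinearMap.id
  have hU : ∀ v, v ∈ U ↔ ρ x v = v := fun _ => Iff.rfl
  have hU' : ∀ v, v ∈ U ↔ ∀ g ∈ zpowers x, ρ g v = v := fun v => by
    refine ⟨fun h g hg => ?_, fun h => h x (mem_zpowers x)⟩
    obtain ⟨n, rfl⟩ := (mem_powers_iff_mem_zpowers.2 hg)
    rw [hU] at h
    induction n with
    | zero => simp
    | succ n ih => simp only [pow_succ, map_mul, End.mul_apply, h]; exact ih (npow_mem_zpowers x n)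
  have hc : ∀ v : U, x * (Vec.toMul v.1 : N) = (Vec.toMul v.1 : N) * x := fun v => by
    have := hv x v
    rw [(hU _).1 v.2] at this
    rw [← mul_inv_eq_iff_eq_mul, ← this]
  have hinv : ∀ g : centralizer ({x} : Set G), ∀ v ∈ U, ρ g v ∈ U := fun g v h => by
    rw [hU] at h ⊢
    rw [← End.mul_apply, ← map_mul, mem_cent.1 g.2, map_mul, End.mul_apply, h]
  have hJ : (Nat.card (zpowers x) : ZMod p) ≠ 0 := by
    rwa [Ne, ZMod.natCast_eq_zero_iff, Nat.card_zpowers]
  let σ : centralizer ({x} : Set G) →* End (ZMod p) U :=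
    Representation.subrepresentation (ρ.comp (centralizer ({x} : Set G)).subtype) U hinv
  have hσ : ∀ g (v : U), (σ g v : Vec p N) = ρ g v := fun _ _ => rfl
  have hy : Vec.ofMul p (⟨y0, hy0⟩ : N) ∈ U := by
    rw [hU]
    apply Vec.toMul.injective
    apply Subtype.ext
    rw [hv, mul_inv_eq_iff_eq_mul]; exact hy1
  refine ⟨U, _, _, ⟨⟨⟨_, hy⟩, 0, fun h => hy2 (congrArg Subtype.val (Vec.ofMul_eq_zero.1
      (congrArg Subtype.val h)))⟩⟩, σ, B.domRestrict₁₂ U U, fun v => ⟨_, mem_cent.2 (hc v)⟩,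
    ⟨fun g v w => hB.inv g v w, fun v h => Subtype.ext ?_, fun v h => Subtype.ext ?_⟩,
    fun v => halt v, fun v w h => ?_, fun v w => rfl, fun g v => rfl, fun g k hg => ?_⟩
  · exact hB.fix_left _ hJ ((hU' _).1 v.2) fun w hw => h ⟨w, (hU' _).2 hw⟩
  · exact hB.fix_right _ hJ ((hU' _).1 v.2) fun w hw => h ⟨w, (hU' _).2 hw⟩
  · have h' := congrArg Subtype.val h
    exact Subtype.ext (Vec.toMul.injective (Subtype.ext h'))
  · have hg' : (g : G) ∈ P := mem_sylow P (k := k) (congrArg Subtype.val hg)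
    ext v
    apply Vec.toMul.injective
    apply Subtype.ext
    rw [hσ, hv, mul_inv_eq_iff_eq_mul, End.one_apply]
    obtain ⟨z, hz, e⟩ := hNZ (Vec.toMul v.1 : N).2
    have := congrArg Subtype.val (mem_center_iff.1 hz ⟨g, hg'⟩)
    rw [← show (z : G) = _ from e]
    exact this

end Cfsg.Lib.DCS
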