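import Cfsg.Agent.DCS.Plan2
import Cfsg.Agent.Solv.PGroupBasic

/-! Tower DCS: a solvable group with centralizers of orders four, six, eight and nine. -/

set_option autoImplicit false

namespace Cfsg.Lib.DCS

open Subgroup Cfsg.Lib.Solv

universe u

namespace Fin9

variable {G : Type*} [Group G] [Finite G]

omit [Finite G] in
theorem conj_inj {T : Subgroup G} {a : G} (h : ∀ t ∈ T, a * t = t * a → t = 1) :
    Function.Injective fun t : T => t.1 * a * t.1⁻¹ := fun t s e => by
  have e : t.1 * a * t.1⁻¹ = s.1 * a * s.1⁻¹ := e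
  refine Subtype.ext (inv_mul_eq_one.1 (h _ (mul_mem (inv_mem s.2) t.2) ?_)).symm
  calc a * (s.1⁻¹ * t.1) = s.1⁻¹ * (s.1 * a * s.1⁻¹) * t.1 := by group
    _ = _ := by rw [← e]; group

theorem surj {A : Subgroup G} [hA : A.Normal] {a : G} (h3 : ∀ b ∈ A, a * b = b * a → b = 1) :
    ∀ b ∈ A, ∃ c ∈ A, c⁻¹ * (a * c * a⁻¹) = b := fun b hb => by
  let f : A → A := fun c => ⟨c.1⁻¹ * (a * c * a⁻¹), mul_mem (inv_mem c.2) (hA.conj_mem c c.2 a)⟩
  obtain ⟨c, e⟩ := Finite.injective_iff_surjective.1 (show Function.Injective f from fun c d e => by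
    have e : c.1⁻¹ * (a * c * a⁻¹) = d.1⁻¹ * (a * d * a⁻¹) := congrArg Subtype.val e
    refine Subtype.ext (mul_inv_eq_one.1 (h3 _ (mul_mem d.2 (inv_mem c.2)) ?_)).symm
    calc a * (d.1 * c.1⁻¹) = d.1 * (d.1⁻¹ * (a * d * a⁻¹)) * (a * c.1⁻¹) := by group
      _ = _ := by rw [← e]; group) ⟨b, hb⟩
  exact ⟨c, c.2, congrArg Subtype.val e⟩

theorem inverts {A : Subgroup G} [A.Normal] {a : G} (h2 : a * a = 1)
    (h3 : ∀ b ∈ A, a * b = b * a → b = 1) : ∀ b ∈ A, a * b * a⁻¹ = b⁻¹ := fun b hb => by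
  obtain ⟨c, -, rfl⟩ := surj h3 b hb
  calc _ = a * c⁻¹ * a⁻¹ * (a * a) * c * (a * a)⁻¹ := by group
    _ = _ := by rw [h2]; group

omit [Finite G] in
theorem pow_cz {a b : G} (h : a * b = b * a) : b ^ cz a = 1 :=
  orderOf_dvd_iff_pow_eq_one.1 (orderOf_dvd_cz h)

/-- the centre of the Sylow 2-subgroup `C(z)` -/
theorem cent (h16 : ¬ 16 ∣ Nat.card G) {x z : G} (hx : cz x = 4) (hz : cz z = 8) (z1 : z ≠ 1) :
    ∀ n ∈ centralizer (centralizer ({z} : Set G) : Set G), n = 1 ∨ n = z := by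
  have hp : IsPGroup 2 (centralizer ({z} : Set G)) := IsPGroup.of_card (n := 3) hz
  have hi : ¬ 2 ∣ (centralizer ({z} : Set G)).index := fun h => h16 (by
    rw [← (centralizer ({z} : Set G)).card_mul_index]
    exact mul_dvd_mul (a := 8) (c := 2) hz.symm.dvd h)
  obtain ⟨Q, hQ⟩ := (IsPGroup.of_card (p := 2) (G := centralizer ({x} : Set G)) (n := 2)
    hx).exists_le_sylow
  obtain ⟨g, e⟩ := MulAction.exists_smul_eq G Q (hp.toSylow hi)
  have hx' : g * x * g⁻¹ ∈ centralizer ({z} : Set G) := by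
    rw [← hp.mem_toSylow hi, ← e]
    exact smul_mem_pointwise_smul x (MulAut.conj g) Q (hQ (mem_cent.2 rfl))
  have c4 : cz (g * x * g⁻¹) = 4 := (cz_conj g x).trans hx
  generalize g * x * g⁻¹ = v at hx' c4
  set D := centralizer (centralizer ({z} : Set G) : Set G)
  have l : D ≤ centralizer {v} := centralizer_le (Set.singleton_subset_iff.2 hx')
  have ne : D ≠ centralizer {v} := fun h => by
    have a : v ∈ D := h ▸ mem_cent.2 rfl
    have := card_le_of_le (H := centralizer {z}) (K := centralizer {v})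
      fun s hs => mem_cent.2 (a s hs).symm
    change cz z ≤ cz v at this
    omega
  have d : Nat.card D ∣ 4 := c4 ▸ card_dvd_of_le l
  have lt : Nat.card D < 4 := c4 ▸ card_lt_of_lt (l.lt_of_ne ne)
  have zD : z ∈ D := fun s hs => (mem_cent.1 hs).symm
  intro n hn
  by_contra! h
  have : ({1, z, n} : Set G).ncard ≤ Nat.card D :=
    Set.ncard_le_ncard (t := (D : Set G)) (by rintro _ (rfl | rfl | rfl); exacts [one_mem D, zD, hn])
  rw [Set.ncard_insert_of_notMem (by simp [z1.symm, h.1.symm]), Set.ncard_pair h.2.symm] at this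
  have : Nat.card D = 3 := by omega
  rw [this] at d
  omega

end Fin9

open Fin9 in
theorem wFin : WFin.{u} := by
  intro G _ _ hs _ h16 x w z y hx hw hz hy
  have h9 : 9 ∣ Nat.card G := hy ▸ cz_dvd y
  have z1 : z ≠ 1 := by
    rintro rfl
    rw [← cz_one, hz] at h9
    omega
  have y1 : y ≠ 1 := by
    rintro rfl
    have := cz_dvd z
    rw [← cz_one, hz, hy] at this
    omega
  have hD := cent h16 hx hz z1
  have zz : z * z = 1 := (hD _ fun s hs => ((show Commute z s from mem_cent.1 hs).mul_left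
    (mem_cent.1 hs)).symm.eq).resolve_right (by simpa using z1)
  have fpf : ∀ (M : Subgroup G) [M.Normal], z ∉ M → ∀ b ∈ M, z * b = b * z → b = 1 := by
    intro M _ hM b hb e
    by_contra b1
    have hp : IsPGroup 2 (centralizer ({z} : Set G)) := IsPGroup.of_card (n := 3) hz
    refine PG.inf_centralizer_ne_bot_of_isNilpotent (S := centralizer {z})
      (N := M ⊓ centralizer {z}) hp.isNilpotent inf_le_right ?_
      (fun h => b1 (mem_bot.1 (h ▸ (⟨hb, mem_cent.2 e⟩ : b ∈ M ⊓ centralizer {z})))) ?_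
    · exact (le_inf (le_top.trans (normalizer_eq_top M).ge) le_normalizer).trans
        inf_normalizer_le_normalizer_inf
    · refine eq_bot_iff.2 fun n hn => (hD n hn.2).resolve_right ?_
      rintro rfl
      exact hM hn.1.1
  have y9 : ∀ c, y * c = c * y → c ^ 8 = 1 → c = 1 := fun c e a => by
    have := pow_cz e
    rwa [hy, pow_succ, a, one_mul] at this
  have z8 : ∀ c, z * c = c * z → c ^ 8 = 1 := fun c e => hz ▸ pow_cz e
  have : Nontrivial G := ⟨z, 1, z1⟩
  obtain ⟨-, N, -, hN, hc, -⟩ := exists_isMinNormal_elementary G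
  have := hN.1
  have zN : z ∉ N := fun h => by
    have a := Nat.card_le_card_of_injective (α := centralizer ({y} : Set G))
      (β := centralizer ({z} : Set G)) (fun t => ⟨t.1 * z * t.1⁻¹, mem_cent.2
        (N.mul_comm_of_mem_isMulCommutative h (this.conj_mem z h t))⟩) fun t s e =>
        conj_inj (fun t ht e => y9 t (mem_cent.1 ht) (z8 t e)) (congrArg Subtype.val e)
    change cz y ≤ cz z at a
    omega
  have iN := inverts zz (fpf N zN)
  set K := centralizer (N : Set G)
  have zK : z ∉ K := fun h => hN.2 (eq_bot_iff.2 fun n hn => fpf N zN n hn (h n hn).symm)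
  have iK := inverts zz (fpf K zK)
  have cK : ∀ a ∈ K, ∀ b ∈ K, a * b = b * a := fun a ha b hb => by
    have := iK _ (mul_mem ha hb)
    rw [← conj_mul, iK a ha, iK b hb, mul_inv_rev] at this
    simpa using congrArg Inv.inv this.symm
  have g8 : ∀ g : G, g ^ 8 ∈ K := fun g => by
    obtain ⟨c, hc, e⟩ := surj (fpf K zK) (g * z * g⁻¹ * z⁻¹) fun n hn => by
      have a := iN _ (hN.1.conj_mem _ (inv_mem hn) g⁻¹)
      calc n * (g * z * g⁻¹ * z⁻¹) = g * (g⁻¹ * n⁻¹ * g⁻¹⁻¹)⁻¹ * z * g⁻¹ * z⁻¹ := by group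
        _ = g * z * g⁻¹ * z⁻¹ * (z * n⁻¹ * z⁻¹) := by rw [← a]; group
        _ = _ := by rw [iN n⁻¹ (inv_mem hn), inv_inv]
    have a : (c * g) ^ 8 = 1 := z8 _ (by
      calc z * (c * g) = c * (c⁻¹ * (z * c * z⁻¹)) * z * g := by group
        _ = _ := by rw [e]; group)
    have b := congrArg (QuotientGroup.mk (s := K)) a
    rwa [QuotientGroup.mk_pow, QuotientGroup.mk_mul, (QuotientGroup.eq_one_iff c).2 hc, one_mul,
      ← QuotientGroup.mk_pow, QuotientGroup.mk_one, QuotientGroup.eq_one_iff] at b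
  have yK : ∀ c, y * c = c * y → c ∈ K := fun c e => by
    have := pow_cz e
    rw [hy, pow_succ, mul_eq_one_iff_inv_eq] at this
    exact this ▸ inv_mem (g8 c)
  have eK : K = centralizer {y} := le_antisymm (fun c hc => mem_cent.2 (cK y (yK y rfl) c hc))
    fun c hc => yK c (mem_cent.1 hc)
  have k9 : Nat.card K = 9 := eK ▸ hy
  obtain ⟨b, hb⟩ := exists_prime_orderOf_dvd_card' (G := centralizer ({w} : Set G)) 3
    (by rw [show Nat.card _ = 6 from hw]; decide)
  have b1 : b.1 ≠ 1 := fun h => by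
    rw [← orderOf_coe, h, orderOf_one] at hb
    omega
  have bK : b.1 ∈ K := by
    have a : b.1 ^ 9 = 1 := by
      rw [← Subgroup.coe_pow, orderOf_dvd_iff_pow_eq_one.1 (hb ▸ by decide)]; rfl
    rw [pow_succ, mul_eq_one_iff_inv_eq] at a
    exact a ▸ inv_mem (g8 b)
  have cb : cz b.1 = 9 := by
    have a : Set.range (fun t : centralizer ({z} : Set G) => t.1 * y * t.1⁻¹) = (K : Set G) \ {1} := by
      refine Set.eq_of_subset_of_ncard_le ?_ ?_
      · rintro _ ⟨t, rfl⟩
        exact ⟨(inferInstance : K.Normal).conj_mem y (yK y rfl) t, by simpa using y1⟩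
      · rw [Set.ncard_diff_singleton_of_mem (one_mem K), Set.ncard_range_of_injective
          (conj_inj fun t ht e => y9 t e (z8 t (mem_cent.1 ht)))]
        change Nat.card K - 1 ≤ cz z
        omega
    obtain ⟨t, e⟩ := a.ge ⟨bK, b1⟩
    rw [← show _ = b.1 from e, cz_conj, hy]
  have wK : w ∈ K := (eq_of_le_of_card_ge (H := K) (K := centralizer {b.1})
    (fun c hc => mem_cent.2 (cK _ bK c hc)) (cb.trans k9.symm).le).ge
    (mem_cent.2 (mem_cent.1 b.2).symm)
  have := card_dvd_of_le (H := K) (K := centralizer {w}) fun c hc => mem_cent.2 (cK w wK c hc)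
  rw [k9, show Nat.card _ = 6 from hw] at this
  omega

end Cfsg.Lib.DCS
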