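import Cfsg.Agent.DCS.Plan2
import Cfsg.Agent.Hls.Lin

/-! Tower DCS: invariant bilinear forms for real groups. -/

set_option autoImplicit false

namespace Cfsg.Lib.DCS

open Module Cfsg.Lib.Solv Cfsg.Lib.Hls

universe u v

namespace Frm

section closed

variable {L G : Type*} [Field L] [Group G] [IsAlgClosed L]

/-- Burnside: a simple representation spans the endomorphism algebra -/
theorem surj {W : Type*} [AddCommGroup W] [Module L W] [FiniteDimensional L W]
    {σ : Representation L G W} (h : Sim σ) : Function.Surjective σ.asAlgebraHom := by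
  intro T
  let A := σ.asAlgebraHom.range
  have hg : ∀ g, σ g ∈ A := fun g => ⟨MonoidAlgebra.of L G g, σ.asAlgebraHom_of g⟩
  have := h.nt
  have hs : IsSimpleModule A W := by
    refine isSimpleModule_iff _ _ |>.2 ⟨fun U => ?_⟩
    rcases h.inv (U.restrictScalars L) (fun g v hv => U.smul_mem (⟨σ g, hg g⟩ : A) hv) with h1 | h1
    · left; exact (Submodule.restrictScalars_eq_bot_iff L A W).1 h1
    · right; exact (Submodule.restrictScalars_eq_top_iff L A W).1 h1
  obtain ⟨s, hs⟩ := Module.Finite.fg_top (R := L) (M := W)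
  let f : End (End A W) W :=
    { toFun := T
      map_add' := T.map_add
      map_smul' := fun φ v => by
        obtain ⟨c, hc⟩ := h.schur (φ.restrictScalars L) fun g v => φ.map_smul (⟨σ g, hg g⟩ : A) v
        have hc' : ∀ v, φ v = c • v := hc
        simp only [End.smul_def, hc', map_smul, RingHom.id_apply] }
  obtain ⟨x, hx⟩ := jacobson_density f s
  obtain ⟨a, ha⟩ := x.2
  refine ⟨a, ?_⟩
  refine LinearMap.ext_on (s := (s : Set W)) hs fun m hm => ?_
  have : σ.asAlgebraHom a = x.1 := ha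
  rw [this]
  exact (hx m hm).symm

theorem simple {W : Type*} [AddCommGroup W] [Module L W] [FiniteDimensional L W]
    {σ : Representation L G W} (h : Sim σ) (hr : ∀ g : G, IsConj g g⁻¹) :
    ∃ B : W →ₗ[L] W →ₗ[L] L, B ≠ 0 ∧ ∀ g v w, B (σ g v) (σ g w) = B v w := by
  have := h.nt
  have htr : ∀ g, LinearMap.trace L W (σ g⁻¹) = LinearMap.trace L W (σ g) := fun g => by
    obtain ⟨c, hc⟩ := isConj_iff.1 (hr g)
    rw [← hc, map_mul σ, map_mul σ, LinearMap.trace_mul_cycle, ← map_mul σ, inv_mul_cancel,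
      map_one, one_mul]
  let T : MonoidAlgebra L G →ₗ[L] End L W := σ.asAlgebraHom.toLinearMap
  let T' : MonoidAlgebra L G →ₗ[L] End L W :=
    Finsupp.linearCombination L (fun g => σ g⁻¹) ∘ₗ (MonoidAlgebra.coeffLinearEquiv L).toLinearMap
  have hT' : ∀ g, T' (MonoidAlgebra.of L G g) = σ g⁻¹ := fun g => by
    simp [T']
  have hT : ∀ g, T (MonoidAlgebra.of L G g) = σ g := σ.asAlgebraHom_of
  have key : ∀ a k, LinearMap.trace L W (T' a * σ k⁻¹) = LinearMap.trace L W (σ k * T a) := by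
    intro a k
    induction a using MonoidAlgebra.induction_on with
    | of g => rw [hT, hT', ← map_mul, ← map_mul, ← mul_inv_rev, htr]
    | add a b ha hb => simp only [map_add, add_mul, mul_add, ha, hb]
    | smul c a ha => simp only [map_smul, smul_mul_assoc, mul_smul_comm, ha]
  have nd : ∀ f : End L W, (∀ k, LinearMap.trace L W (f * σ k) = 0) → f = 0 := by
    intro f hf
    have h1 : ∀ a, LinearMap.trace L W (f * T a) = 0 := fun a => by
      induction a using MonoidAlgebra.induction_on with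
      | of g => rw [hT, hf]
      | add a b ha hb => simp only [map_add, mul_add, ha, hb, add_zero]
      | smul c a ha => simp only [map_smul, mul_smul_comm, ha, smul_zero]
    ext v
    refine (Module.forall_dual_apply_eq_zero_iff L _).1 fun φ => ?_
    obtain ⟨a, ha⟩ := surj h (φ.smulRight v)
    have h2 := h1 a
    have h3 : f * T a = φ.smulRight (f v) := by
      rw [show T a = φ.smulRight v from ha]; ext; simp
    rwa [h3, LinearMap.trace_smulRight] at h2
  have k1 : ∀ a, T a = 0 → T' a = 0 := fun a ha => nd _ fun k => by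
    have := key a k⁻¹
    rwa [inv_inv, ha, mul_zero, map_zero] at this
  have k2 : ∀ a, T' a = 0 → T a = 0 := fun a ha => nd _ fun k => by
    have := key a k
    rw [ha, zero_mul, map_zero] at this
    rw [LinearMap.trace_mul_comm, ← this]
  obtain ⟨s, hs⟩ := T.exists_rightInverse_of_surjective (LinearMap.range_eq_top.2 (surj h))
  have hs' : ∀ f, T (s f) = f := fun f => LinearMap.congr_fun hs f
  have hm : ∀ g a, T' (MonoidAlgebra.of L G g * a) = T' a * σ g⁻¹ := fun g a => by
    induction a using MonoidAlgebra.induction_on with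
    | of k => rw [← map_mul, hT', hT', mul_inv_rev, map_mul]
    | add a b ha hb => simp only [map_add, add_mul, mul_add, ha, hb]
    | smul c a ha => simp only [map_smul, smul_mul_assoc, mul_smul_comm, ha]
  have hθ : ∀ g f, T' (s (σ g * f)) = T' (s f) * σ g⁻¹ := fun g f => by
    rw [← hm, ← sub_eq_zero, ← map_sub]
    apply k1
    rw [map_sub, hs', sub_eq_zero]
    change _ = σ.asAlgebraHom _
    rw [map_mul, σ.asAlgebraHom_of]
    exact congrArg _ (hs' f).symm
  obtain ⟨w0, hw0⟩ := exists_ne (0 : W)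
  obtain ⟨φ, hφ⟩ := Module.Projective.exists_dual_eq_one L hw0
  have hne : T' (s (φ.smulRight w0)) ≠ 0 := fun e => by
    have := k2 _ e
    rw [hs'] at this
    have := LinearMap.congr_fun this w0
    simp [hφ, hw0] at this
  obtain ⟨w1, hw1⟩ : ∃ w1, T' (s (φ.smulRight w0)) w1 ≠ 0 := by
    by_contra hc
    push Not at hc
    exact hne (LinearMap.ext hc)
  obtain ⟨ψ, hψ⟩ := Module.Projective.exists_dual_eq_one L hw1
  refine ⟨(T' ∘ₗ s ∘ₗ LinearMap.smulRightₗ φ).compr₂ ψ, fun e => ?_, fun g v w => ?_⟩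
  · have := LinearMap.congr_fun (LinearMap.congr_fun e w0) w1
    simp only [LinearMap.compr₂_apply, LinearMap.comp_apply, LinearMap.zero_apply] at this
    exact one_ne_zero (hψ.symm.trans this)
  · simp only [LinearMap.compr₂_apply, LinearMap.comp_apply]
    have : LinearMap.smulRightₗ φ (σ g v) = σ g * LinearMap.smulRightₗ φ v := by
      ext; simp
    rw [this, hθ, End.mul_apply, ← End.mul_apply (σ g⁻¹), ← map_mul, inv_mul_cancel, map_one,
      End.one_apply]

theorem closed (hr : ∀ g : G, IsConj g g⁻¹) (W : Type v) [AddCommGroup W] [Module L W]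
    [FiniteDimensional L W] [Nontrivial W] (σ : Representation L G W) :
    ∃ B : W →ₗ[L] W →ₗ[L] L, B ≠ 0 ∧ ∀ g v w, B (σ g v) (σ g w) = B v w := by
  induction hn : finrank L W using Nat.strong_induction_on generalizing W with
  | _ n ih =>
  subst hn
  by_cases hsim : Sim σ
  · exact simple hsim hr
  obtain ⟨U, hU, h1, h2⟩ : ∃ U : Submodule L W, (∀ g, ∀ v ∈ U, σ g v ∈ U) ∧ U ≠ ⊥ ∧ U ≠ ⊤ := by
    by_contra hne
    push Not at hne
    exact hsim ⟨‹_›, fun U hU => or_iff_not_imp_left.mpr (hne U hU)⟩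
  have hU' : ∀ g, U ≤ U.comap (σ g) := fun g v hv => hU g v hv
  have d1 := U.finrank_quotient_add_finrank
  have d3 : finrank L U ≠ 0 := by rwa [Ne, Submodule.finrank_eq_zero]
  have : Nontrivial (W ⧸ U) := Submodule.Quotient.nontrivial_iff.2 h2
  obtain ⟨B, hB, hi⟩ := ih _ (by omega) (W ⧸ U) (σ.quotient U hU') rfl
  refine ⟨B.compl₁₂ U.mkQ U.mkQ, fun e => hB ?_, fun g v w => hi g (U.mkQ v) (U.mkQ w)⟩
  ext v w
  exact LinearMap.congr_fun (LinearMap.congr_fun e v) w

end closed

open TensorProduct in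
/-- a nonzero representation of a real group has a nonzero invariant bilinear form -/
theorem exists_form {K G V : Type*} [Field K] [Group G] [AddCommGroup V] [Module K V]
    [FiniteDimensional K V] [Nontrivial V] (ρ : G →* End K V) (hr : ∀ g : G, IsConj g g⁻¹) :
    ∃ B : V →ₗ[K] V →ₗ[K] K, B ≠ 0 ∧ ∀ g v w, B (ρ g v) (ρ g w) = B v w := by
  let L := AlgebraicClosure K
  let σ : Representation L G (L ⊗[K] V) := (End.baseChangeHom K L V).toMonoidHom.comp ρ
  have : Nontrivial (L ⊗[K] V) := Module.nontrivial_of_finrank_pos (R := L) (by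
    rw [Module.finrank_baseChange]; exact finrank_pos)
  obtain ⟨B, hB, hi⟩ := closed hr _ σ
  obtain ⟨v0, w0, h0⟩ : ∃ v w, B (1 ⊗ₜ v) (1 ⊗ₜ w) ≠ 0 := by
    by_contra hc
    push Not at hc
    apply hB
    ext v w
    exact hc v w
  obtain ⟨φ, hφ⟩ := Module.Projective.exists_dual_eq_one K h0
  let j : V →ₗ[K] L ⊗[K] V := TensorProduct.mk K L V 1
  refine ⟨((B.restrictScalars₁₂ K K).compl₁₂ j j).compr₂ φ, fun e => ?_, fun g v w => ?_⟩
  · have := LinearMap.congr_fun (LinearMap.congr_fun e v0) w0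
    exact one_ne_zero (hφ.symm.trans this)
  · exact congrArg φ (hi g (1 ⊗ₜ v) (1 ⊗ₜ w))

end Frm

/-- an irreducible representation of a real group has a nondegenerate invariant form -/
theorem exists_isForm {K G V : Type*} [Field K] [Group G] [AddCommGroup V] [Module K V]
    [FiniteDimensional K V] [Nontrivial V] (ρ : G →* End K V) (hr : ∀ g : G, IsConj g g⁻¹)
    (hi : ∀ U : Submodule K V, (∀ g, ∀ v ∈ U, ρ g v ∈ U) → U = ⊥ ∨ U = ⊤) : ∃ B, IsForm ρ B := by
  obtain ⟨B, h0, hB⟩ := Frm.exists_form ρ hr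
  have key : ∀ C : V →ₗ[K] V →ₗ[K] K, C ≠ 0 → (∀ g v w, C (ρ g v) (ρ g w) = C v w) →
      ∀ v, (∀ w, C v w = 0) → v = 0 := by
    intro C c0 hC v hv
    have hk : ∀ g, ∀ v ∈ LinearMap.ker C, ρ g v ∈ LinearMap.ker C := fun g v hv => by
      rw [LinearMap.mem_ker] at hv ⊢
      ext w
      have := hC g v (ρ g⁻¹ w)
      rwa [← End.mul_apply (ρ g) (ρ g⁻¹), ← map_mul, mul_inv_cancel, map_one, End.one_apply,
        hv] at this
    rcases hi (LinearMap.ker C) hk with h | h
    · exact (Submodule.eq_bot_iff _).1 h v (LinearMap.ext hv)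
    · exact absurd (LinearMap.ker_eq_top.1 h) c0
  refine ⟨B, hB, key B h0 hB, key B.flip (fun e => h0 ?_) fun g v w => hB g w v⟩
  ext v w
  exact LinearMap.congr_fun (LinearMap.congr_fun e w) v

theorem wForm : WForm.{u} := by
  intro p _ G _ _ hr N _ _ hN
  have : Nontrivial N := (Subgroup.nontrivial_iff_ne_bot N).2 hN.ne_bot
  refine exists_isForm _ hr fun U hU => ?_
  let M := ((Vec.subEquiv p N).symm U).map N.subtype
  have hM : M.Normal := ⟨by
    rintro _ ⟨x, hx, rfl⟩ g
    exact ⟨MulAut.conjNormal g x, hU g _ hx, rfl⟩⟩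
  by_cases h0 : M = ⊥
  · left
    rw [Subgroup.map_eq_bot_iff_of_injective _ N.subtype_injective] at h0
    rw [← (Vec.subEquiv p N).apply_symm_apply U, h0, map_bot]
  · right
    have h1 := IsMinNormal.eq_of_le hN h0 (Subgroup.map_subtype_le _)
    rw [eq_top_iff]
    intro v _
    have hv : (Vec.toMul v : N).1 ∈ M := by rw [h1]; exact (Vec.toMul v).2
    obtain ⟨x, hx, e⟩ := hv
    obtain rfl : x = Vec.toMul v := Subtype.ext e
    exact hx

/-- the linear core of the normality of Sylow subgroups -/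
theorem IsForm.core2 {K H V : Type*} [Field K] [Group H] [AddCommGroup V] [Module K V] [Finite V]
    {ρ : H →* End K V} {B : V →ₗ[K] V →ₗ[K] K} (h : IsForm ρ B) (J : Subgroup H) [Finite J]
    (hJ : (Nat.card J : K) ≠ 0) (r : H) (hc : ∀ g ∈ J, g * r = r * g)
    (fpf : ∀ j : ℕ, 1 ≤ j → j ≤ 3 → ∀ v, (∀ g ∈ J, ρ g v = v) → ρ (r ^ j) v = v → v = 0)
    (e1 : ∀ v, (∀ g ∈ J, ρ g v = v) → B v (ρ r v) = B v (ρ (r ^ 2) v))
    (e2 : ∀ v, (∀ g ∈ J, ρ g v = v) → B v (ρ r v) = B v (ρ r⁻¹ v)) :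
    ∀ v, (∀ g ∈ J, ρ g v = v) → v = 0 := by
  let U : Submodule K V := ⨅ g : J, LinearMap.eqLocus (ρ g) LinearMap.id
  have hU : ∀ v, v ∈ U ↔ ∀ g ∈ J, ρ g v = v := fun v => by simp [U]
  have hz : ∀ (n : ℤ), ∀ v ∈ U, ρ (r ^ n) v ∈ U := fun n v hv => by
    rw [hU] at hv ⊢
    intro g hg
    rw [← End.mul_apply, ← map_mul, ((show Commute g r from hc g hg).zpow_right n).eq, map_mul,
      End.mul_apply, hv g hg]
  have h1 : ∀ v ∈ U, ρ r v ∈ U := by simpa using hz 1
  have hi : ∀ v ∈ U, ρ r⁻¹ v ∈ U := by simpa using hz (-1)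
  have ri : ∀ v, ρ r (ρ r⁻¹ v) = v := fun v => by
    rw [← End.mul_apply, ← map_mul, mul_inv_cancel, map_one, End.one_apply]
  have r2 : ∀ v, ρ (r ^ 2) v = ρ r (ρ r v) := fun v => by rw [pow_two, map_mul, End.mul_apply]
  have r3 : ∀ v, ρ (r ^ 3) v = ρ r (ρ r (ρ r v)) := fun v => by
    rw [pow_succ', map_mul, End.mul_apply, r2]
  have pol : ∀ a : End K V, (∀ v ∈ U, B v (a v) = 0) → ∀ v ∈ U, ∀ w ∈ U,
      B v (a w) + B w (a v) = 0 := fun a ha v hv w hw => by
    have := ha _ (U.add_mem hv hw)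
    simp only [map_add, LinearMap.add_apply, ha v hv, ha w hw] at this
    linear_combination this
  have p1 := pol (ρ r - ρ (r ^ 2)) fun v hv => by
    rw [LinearMap.sub_apply, map_sub, e1 v ((hU v).1 hv), sub_self]
  have p2 := pol (ρ r - ρ r⁻¹) fun v hv => by
    rw [LinearMap.sub_apply, map_sub, e2 v ((hU v).1 hv), sub_self]
  have sj : Function.Surjective ((ρ r - ρ r⁻¹).restrict
      (p := U) (q := U) fun v hv => U.sub_mem (h1 v hv) (hi v hv)) := by
    apply Finite.surjective_of_injective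
    rw [injective_iff_map_eq_zero]
    intro v hv
    have h3 : ρ r v = ρ r⁻¹ v := sub_eq_zero.1 (congrArg Subtype.val hv)
    exact Subtype.ext (fpf 2 (by norm_num) (by norm_num) v ((hU _).1 v.2) (by rw [r2, h3, ri]))
  have sym : ∀ v ∈ U, ∀ w ∈ U, B v w = B w v := fun v hv w hw => by
    obtain ⟨x, hx⟩ := sj ⟨v, hv⟩
    obtain rfl : ρ r x - ρ r⁻¹ x = v := congrArg Subtype.val hx
    have := p2 x x.2 w hw
    have a1 := h.adj r x w
    have a2 := h.adj r⁻¹ x w
    rw [inv_inv] at a2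
    simp only [LinearMap.sub_apply, map_sub] at this ⊢
    linear_combination a1 - a2 - this
  intro v hv
  have hv' := (hU v).2 hv
  have m2 := h1 _ (h1 _ hv')
  have z : ρ r (ρ r (ρ r v)) - ρ r (ρ r (ρ r (ρ r v))) + ρ r v - v = 0 := by
    refine h.fix_right J hJ ((hU _).1 (U.sub_mem (U.add_mem (U.sub_mem (h1 _ m2)
      (h1 _ (h1 _ m2))) (h1 _ hv')) hv')) fun w hw => ?_
    have hw' := (hU w).2 hw
    have := p1 w hw' _ m2
    have s1 := sym _ m2 _ (h1 w hw')
    have s2 := sym _ m2 _ (h1 _ (h1 w hw'))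
    have i1 := h.inv r w (ρ r v)
    have i2 := h.inv r (ρ r w) (ρ r v)
    have i3 := h.inv r w v
    simp only [LinearMap.sub_apply, map_sub, map_add, r2] at this ⊢
    linear_combination this - s1 + s2 - i1 + i2 + i3
  have z2 : ρ r (ρ r (ρ r v)) - v = 0 := by
    refine fpf 1 le_rfl (by norm_num) _ ((hU _).1 (U.sub_mem (h1 _ m2) hv')) ?_
    rw [pow_one, map_sub, ← sub_eq_zero, ← neg_eq_zero, ← z]
    abel
  exact fpf 3 (by norm_num) le_rfl v hv (by rw [r3]; exact sub_eq_zero.1 z2)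

end Cfsg.Lib.DCS
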