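import Cfsg.Agent.DCS.Defs
import Cfsg.Agent.S0017
import Cfsg.Agent.S0112
import Cfsg.Agent.S0113
import Cfsg.Agent.Solv.Cores
import Cfsg.Agent.Known.SylowCount

/-! Tower DCS: rational solvable groups with a centralizer of order 4. -/

set_option autoImplicit false

namespace Cfsg.Lib.DCS

open Subgroup

universe u

namespace FourS

theorem aut_dvd (Q : Type*) [Group Q] [Finite Q] :
    Nat.card (MulAut Q) ∣ (Nat.card Q - 1).factorial := by
  classical
  let f : MulAut Q →* Equiv.Perm {x : Q // x ≠ 1} :=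
    { toFun := fun φ => Equiv.Perm.subtypePerm φ.toEquiv fun x => by simp
      map_one' := by ext; rfl
      map_mul' := fun _ _ => by ext; rfl }
  have := card_dvd_of_injective f fun φ ψ h => MulEquiv.ext fun x => by
    by_cases hx : x = 1
    · rw [hx, map_one, map_one]
    · exact congrArg Subtype.val (DFunLike.congr_fun h ⟨x, hx⟩)
  have _ := Fintype.ofFinite Q
  rwa [Nat.card_perm, Nat.card_eq_fintype_card (α := {x : Q // x ≠ 1}), Fintype.card_subtype_compl,
    Fintype.card_subtype_eq, ← Nat.card_eq_fintype_card] at this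

variable {G : Type*} [Group G] [Finite G]

/-- In a rational group an element of order `2 ^ m ≥ 8` forces `2 ^ (m + 2) ∣ |G|`. -/
theorem big (h : Rat G) {k : G} {m : ℕ} (hk : orderOf k = 2 ^ (m + 3)) :
    2 ^ (m + 5) ∣ Nat.card G := by
  have hN : ∀ g : G, ∀ j : ℤ, g * k * g⁻¹ = k ^ j → g ∈ normalizer (zpowers k : Set G) :=
    fun g j e => mem_normalizer_fintype fun n ⟨i, hi⟩ =>
      ⟨j * i, by simp only at hi ⊢; rw [← hi, ← conj_zpow, e, zpow_mul]⟩
  have hne : ∀ j : ℕ, j = 2 ∨ j = 4 → k ^ j ≠ 1 := fun j hj e => by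
    have := Nat.le_of_dvd (by omega) (orderOf_dvd_of_pow_eq_one e)
    have := Nat.one_le_two_pow (n := m)
    rw [hk, pow_add] at *
    omega
  obtain ⟨g, hg⟩ := isConj_iff.1 (h.real k)
  obtain ⟨g', hg'⟩ := isConj_iff.1 (h k 3 (hk ▸ Nat.Coprime.pow_right _ (by norm_num)))
  have hC : ∀ g ∈ centralizer (zpowers k : Set G), g * k * g⁻¹ = k := fun g hg => by
    rw [← hg k (mem_zpowers k), mul_inv_cancel_right]
  have k1 : g ∉ centralizer (zpowers k : Set G) := fun e => hne 2 (.inl rfl) (by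
    rw [sq, mul_eq_one_iff_eq_inv, ← hg, hC g e])
  have k2 : g' ∉ centralizer (zpowers k : Set G) := fun e => hne 2 (.inl rfl) (by
    rw [hC g' e, pow_succ] at hg'
    exact right_eq_mul.1 hg')
  have k3 : g' * g ∉ centralizer (zpowers k : Set G) := fun e => hne 4 (.inr rfl) (by
    have := hC _ e
    rw [mul_inv_rev, mul_assoc g', mul_assoc g', ← mul_assoc (g * k), hg, ← mul_assoc, ← conj_inv,
      hg'] at this
    rw [pow_succ, mul_eq_one_iff_inv_eq, this])
  have m1 := hN g (-1) (by rw [hg, zpow_neg_one])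
  have m2 := hN g' (3 : ℕ) (by rw [hg', zpow_natCast])
  have h1 := Known.SC.relIndex_centralizer_dvd_card_mulAut (zpowers k)
  rw [IsCyclic.card_mulAut, Nat.card_zpowers, hk, Nat.totient_prime_pow Nat.prime_two (by omega)]
    at h1
  obtain ⟨j, -, hj⟩ := (Nat.dvd_prime_pow Nat.prime_two).1 (by simpa using h1 :
    (centralizer (zpowers k : Set G)).relIndex (normalizer (zpowers k : Set G)) ∣ 2 ^ (m + 2))
  obtain ⟨j, rfl⟩ : ∃ i, j = i + 2 := by
    rcases j with _ | _ | j
    · exact absurd (relIndex_eq_one.1 hj m1) k1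
    · exact absurd ((mul_mem_iff_of_index_two hj (a := ⟨g', m2⟩) (b := ⟨g, m1⟩)).2
        (iff_of_false k2 k1)) k3
    · exact ⟨j, rfl⟩
  refine .trans ?_ (card_subgroup_dvd_card (normalizer (zpowers k : Set G)))
  rw [← ((centralizer (zpowers k : Set G)).subgroupOf _).index_mul_card, ← relIndex, hj,
    show 2 ^ (m + 5) = 2 ^ 2 * 2 ^ (m + 3) by ring, ← hk]
  refine Nat.mul_dvd_mul (pow_dvd_pow 2 (by omega)) ?_
  exact (orderOf_mk k (le_normalizer (mem_zpowers k))).symm ▸ orderOf_dvd_natCard _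
    (mem_subgroupOf.2 (le_centralizer _ (mem_zpowers k)))

variable [Fact (Nat.Prime 2)]

theorem sylow (h : Rat G) {x : G} (hx : cz x = 4) :
    ∃ S : Sylow 2 G, x ∈ S ∧ (Nat.card S = 4 ∨ Nat.card S = 8) := by
  obtain ⟨S, hS⟩ := (IsPGroup.of_card (p := 2) (n := 2) hx).exists_le_sylow
  have hxC : x ∈ centralizer ({x} : Set G) := mem_cent.2 rfl
  refine ⟨S, hS hxC, ?_⟩
  obtain ⟨n, hn⟩ := IsPGroup.iff_card.1 S.isPGroup'
  have h1 := card_dvd_of_le hS
  rw [show Nat.card (centralizer ({x} : Set G)) = 2 ^ 2 from hx, hn,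
    Nat.pow_dvd_pow_iff_le_right one_lt_two] at h1
  by_contra! h2
  obtain ⟨m, rfl⟩ : ∃ m, n = m + 4 := ⟨n - 4, by
    have : n ≠ 2 := fun e => h2.1 (by rw [hn, e]; rfl)
    have : n ≠ 3 := fun e => h2.2 (by rw [hn, e]; rfl)
    omega⟩
  have hc := IsPGroup.isMulCommutative_of_card_eq_prime_sq (p := 2) hx
  obtain ⟨C, hC, h3⟩ := Agent.S0113.result _ (by omega) hn (Agent.S0112.result _ hn
    ((centralizer {x}).subgroupOf S) ((Nat.card_congr (subgroupOfEquivOfLe hS).toEquiv).trans hx)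
    (le_antisymm (fun g hg => mem_cent.2 (congrArg Subtype.val (hg ⟨x, hS hxC⟩ hxC)))
      fun g hg k hk => Subtype.ext (setLike_mul_comm (s := centralizer ({x} : Set G)) hk hg)))
  obtain ⟨k, hk⟩ := (Subgroup.isCyclic_iff_exists_zpowers_eq_top C).1 hC
  have h4 := C.index_mul_card
  rw [h3, hn, ← hk, Nat.card_zpowers, ← orderOf_coe, pow_succ'] at h4
  have h5 := big h (Nat.eq_of_mul_eq_mul_left two_pos h4)
  rw [← (S : Subgroup G).card_mul_index, hn, pow_succ, Nat.mul_dvd_mul_iff_left (by positivity)] at h5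
  exact S.not_dvd_index h5

theorem core (hs : Group.IsSolvable G) (h : Rat G) (hO : pPrimeCore 2 G = ⊥) (S : Sylow 2 G)
    (hS : Nat.card S = 4 ∨ Nat.card S = 8) : (S : Subgroup G) = ⊤ ∨ Nat.card S = 8 ∧
      IsKleinFour (pCore 2 G) ∧ (pCore 2 G).index = 6 := by
  have hle := Solv.pCore_le_sylow S
  by_cases h1 : pCore 2 G = S
  · refine .inl (eq_top_iff.2 fun g _ => ?_)
    obtain ⟨c, hc⟩ := isConj_iff.1 ((h.of_surjective _ (QuotientGroup.mk'_surjective (pCore 2 G))).real
      (g : G ⧸ pCore 2 G))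
    have h2 : Odd (Nat.card (G ⧸ pCore 2 G)) := by
      rw [← index_eq_card, h1]
      exact Nat.odd_iff.2 (Nat.two_dvd_ne_zero.1 S.not_dvd_index)
    exact hle ((QuotientGroup.eq_one_iff g).1 (eq_one_of_real (C := ⊤) (S := ⊥)
      (by rwa [relIndex_bot_left, card_top]) (h2.of_dvd_nat (_root_.orderOf_dvd_natCard _))
      (mem_top c) hc fun s hs => by rw [mem_bot.1 hs, one_mul, mul_one]))
  right
  obtain ⟨n, hn⟩ := IsPGroup.iff_card.1 (S.isPGroup'.to_le hle)
  have h2 : Nat.card (pCore 2 G) < Nat.card S :=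
    lt_of_not_ge fun e => h1 (eq_of_le_of_card_ge hle e)
  have h3 : n ≤ 2 := by
    by_contra h3
    have := Nat.pow_le_pow_right two_pos (not_le.1 h3)
    omega
  have hc : IsMulCommutative (pCore 2 G) := by
    interval_cases n
    · have := isCyclic_of_card_dvd_prime (p := 2) (hn.dvd.trans (one_dvd _)); infer_instance
    · have := isCyclic_of_prime_card (p := 2) hn; infer_instance
    · exact IsPGroup.isMulCommutative_of_card_eq_prime_sq hn
  have h4 := Known.SC.relIndex_centralizer_dvd_card_mulAut (pCore 2 G)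
  rw [le_antisymm (Agent.S0017.result 2 hO) (le_centralizer _), normalizer_eq_top,
    relIndex_top_right] at h4
  have h5 : ¬ (pCore 2 G).index ∣ 2 := fun e => h1 (le_antisymm hle (le_top.trans (Solv.le_pCore
    inferInstance (by
      obtain ⟨j, -, hj⟩ := (Nat.dvd_prime_pow Nat.prime_two).1 (e.trans (pow_one 2).symm.dvd)
      exact IsPGroup.of_card (n := j + n) (by
        rw [card_top, ← (pCore 2 G).index_mul_card, hj, hn, pow_add])))))
  have h6 : ¬ IsCyclic (pCore 2 G) := fun e => h5 (by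
    rw [IsCyclic.card_mulAut, hn] at h4
    interval_cases n
    · exact h4.trans (one_dvd _)
    · exact h4.trans (one_dvd _)
    · exact h4)
  obtain rfl : n = 2 := by
    interval_cases n
    · exact absurd (isCyclic_of_card_dvd_prime (p := 2) (hn.dvd.trans (one_dvd _))) h6
    · exact absurd (isCyclic_of_prime_card (p := 2) hn) h6
    · rfl
  have h8 : Nat.card S = 8 := by omega
  refine ⟨h8, ⟨hn, (not_isCyclic_iff_exponent_eq_prime Nat.prime_two hn).1 h6⟩, ?_⟩
  have h7 := h4.trans (aut_dvd _)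
  have h9 := (pCore 2 G).index_mul_card
  have := (S : Subgroup G).index_mul_card
  rw [hn] at h7 h9
  have := Nat.le_of_dvd (by decide) h7
  generalize (pCore 2 G).index = i at *
  interval_cases i <;> simp_all [Nat.factorial] <;> omega

end FourS

open FourS in
theorem wFourS : WFourS.{u} := by
  intro _ G _ _ hs h x hx
  obtain ⟨S, hxS, hS⟩ := sylow h hx
  refine ⟨S, hxS, hS, ?_⟩
  let π := QuotientGroup.mk' (pPrimeCore 2 G)
  have hπ : Function.Surjective π := QuotientGroup.mk'_surjective _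
  have hk : π.ker = pPrimeCore 2 G := QuotientGroup.ker_mk' _
  have hi : Function.Injective (π.comp (S : Subgroup G).subtype) :=
    (injective_iff_map_eq_one _).2 fun s e => Subtype.ext (mem_bot.1
      ((inf_eq_bot_of_coprime ((Solv.coprime_card_pPrimeCore 2 G).pow_right _ |>.coprime_dvd_right
        (IsPGroup.iff_card.1 S.isPGroup').choose_spec.dvd)).le ⟨hk.le e, s.2⟩))
  have hc : ∀ Q ≤ (S : Subgroup G), Nonempty (Q ≃* Q.map π) := fun Q hQ =>
    ⟨MulEquiv.ofBijective (π.subgroupMap Q) ⟨fun a b e => Subtype.ext (Subtype.mk.inj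
      (hi (a₁ := ⟨a, hQ a.2⟩) (a₂ := ⟨b, hQ b.2⟩) (congrArg Subtype.val e))),
      π.subgroupMap_surjective Q⟩⟩
  have hT : Nat.card (S.mapSurjective hπ) = Nat.card S :=
    (Nat.card_congr (hc _ le_rfl).some.toEquiv).symm
  rcases core inferInstance (h.of_surjective π hπ) (Solv.pPrimeCore_quotient_pPrimeCore 2 G)
    (S.mapSurjective hπ) (hT ▸ hS) with h1 | ⟨h1, h2, h3⟩
  · left
    rw [← hk, sup_comm, ← comap_map_eq, ← Sylow.coe_mapSurjective hπ, h1, comap_top]
  have h4 : ((S : Subgroup G) ⊓ (pCore 2 _).comap π).map π = pCore 2 _ := by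
    refine le_antisymm (map_le_iff_le_comap.2 inf_le_right) fun g hg => ?_
    obtain ⟨s, hs, rfl⟩ := Solv.pCore_le_sylow (S.mapSurjective hπ) hg
    exact ⟨s, ⟨hs, hg⟩, rfl⟩
  have h5 : pPrimeCore 2 G ⊔ (S : Subgroup G) ⊓ (pCore 2 _).comap π = (pCore 2 _).comap π := by
    have := comap_map_eq π ((S : Subgroup G) ⊓ (pCore 2 _).comap π)
    rw [h4, hk, sup_comm] at this
    exact this.symm
  refine .inr ⟨hT ▸ h1, _, inf_le_left, ?_, by rw [h5]; infer_instance,
    by rw [h5, index_comap_of_surjective _ hπ, h3], fun g hg => h5.ge ?_⟩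
  · obtain ⟨e⟩ := hc _ (inf_le_left : (S : Subgroup G) ⊓ (pCore 2 _).comap π ≤ _)
    rw [h4] at e
    exact ⟨(Nat.card_congr e.toEquiv).trans h2.1, (Monoid.exponent_eq_of_mulEquiv e).trans h2.2⟩
  · refine Agent.S0017.result 2 (Solv.pPrimeCore_quotient_pPrimeCore 2 G) fun q hq => ?_
    obtain ⟨s, hs, rfl⟩ := h4.ge hq
    rw [← map_mul, hg s hs, map_mul]

end Cfsg.Lib.DCS
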