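import Cfsg.Agent.DCS.T1

/-! Tower DCS: the fixed-point-free section. -/

set_option autoImplicit false

namespace Cfsg.Lib.DCS

open Subgroup

universe u

namespace GL0

variable {K H V : Type*} [Field K] [Group H] [AddCommGroup V] [Module K V]

theorem inv_apply (ρ : H →* Module.End K V) (g : H) (v : V) : ρ g⁻¹ (ρ g v) = v := by
  rw [← Module.End.mul_apply, ← map_mul, inv_mul_cancel, map_one, Module.End.one_apply]

theorem exists_stab (ρ : H →* Module.End K V) (v : V) : ∃ S : Subgroup H, ∀ g, g ∈ S ↔ ρ g v = v :=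
  ⟨⟨⟨⟨{g | ρ g v = v}, fun {a b} ha hb => by
    rw [Set.mem_setOf_eq, map_mul, Module.End.mul_apply, hb, ha]⟩, by simp⟩, fun {a} ha => by
    have := inv_apply ρ a v
    rwa [ha] at this⟩, fun _ => Iff.rfl⟩

theorem exists_char (ρ : H →* Module.End K V) {v : V} (hv : v ≠ 0) : ∃ (D : Subgroup H) (ν : D →* Kˣ),
    (∀ g : D, ρ g v = (ν g : K) • v) ∧ ∀ (g : H) (a : Kˣ), ρ g v = (a : K) • v → ∃ h : g ∈ D, ν ⟨g, h⟩ = a := by
  let D : Subgroup H := ⟨⟨⟨{g | ∃ a : Kˣ, ρ g v = (a : K) • v}, fun ⟨a, ha⟩ ⟨b, hb⟩ => ⟨b * a, by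
    rw [map_mul, Module.End.mul_apply, hb, map_smul, ha, smul_smul, Units.val_mul]⟩⟩, 1, by simp⟩,
    fun {g} ⟨a, ha⟩ => ⟨a⁻¹, by
      have := inv_apply ρ g v
      rw [ha, map_smul] at this
      rw [Units.val_inv_eq_inv_val, eq_inv_smul_iff₀ a.ne_zero, this]⟩⟩
  choose c hc using fun g : D => g.2
  have k : ∀ (g : D) (a : Kˣ), ρ g v = (a : K) • v → c g = a := fun g a e =>
    Units.ext (smul_left_injective K hv ((hc g).symm.trans e))
  refine ⟨D, MonoidHom.mk' c fun g h => k _ _ ?_, hc, fun g a e => ⟨⟨a, e⟩, k _ a e⟩⟩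
  rw [coe_mul, map_mul, Module.End.mul_apply, hc, map_smul, hc, smul_smul, Units.val_mul, mul_comm]

end GL0

open GL0

theorem wGL0 (h : WL.{u}) : WGL0.{u} := by
  intro p _ H V _ _ _ _ _ ρ hg
  have := hg.nontriv
  have := hg.solv
  choose St hSt using exists_stab ρ
  have : Nonempty {v : V // v ≠ 0} := ⟨⟨_, (exists_ne 0).choose_spec⟩⟩
  obtain ⟨⟨v₀, h0⟩, hm⟩ := Finite.exists_max fun v : {v : V // v ≠ 0} => Nat.card (St v)
  generalize hJ : St v₀ = J at hm
  let U : Submodule (ZMod p) V := ⟨⟨⟨{v | ∀ j ∈ J, ρ j v = v}, fun ha hb j hj => by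
    rw [map_add, ha j hj, hb j hj]⟩, fun j _ => map_zero _⟩, fun c v hv j hj => by rw [map_smul, hv j hj]⟩
  have hU : ∀ v, v ∈ U ↔ ∀ j ∈ J, ρ j v = v := fun _ => Iff.rfl
  have s1 : ∀ u : U, u ≠ 0 → St u = J := fun u hu => (eq_of_le_of_card_ge
    (fun j hj => (hSt _ j).2 (u.2 j hj)) (hm ⟨u, fun e => hu (Subtype.ext e)⟩)).symm
  have s2 : ∀ u u' : U, u ≠ 0 → u' ≠ 0 → ∀ k, ρ k u = u' → k ∈ normalizer (J : Set H) := fun u u' a b k e =>
    mem_normalizer_fintype fun j hj => s1 u' b ▸ (hSt _ _).2 (by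
      rw [map_mul, map_mul, Module.End.mul_apply, Module.End.mul_apply, ← e, inv_apply, u.2 j hj])
  have s3 : ∀ n : normalizer (J : Set H), ∀ v ∈ U, ρ n v ∈ U := fun n v hv j hj => by
    have := hv _ ((mem_normalizer_iff''.1 n.2 j).1 hj)
    rw [map_mul, map_mul, Module.End.mul_apply, Module.End.mul_apply] at this
    have e := inv_apply ρ (n : H)⁻¹ (ρ j (ρ n v))
    rw [inv_inv, this] at e
    exact e.symm
  let σ₀ : normalizer (J : Set H) →* Module.End (ZMod p) U :=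
    { toFun := fun n => (ρ n).restrict (s3 n)
      map_one' := by ext; simp
      map_mul' := fun a b => by ext; simp }
  let σ := QuotientGroup.lift (J.subgroupOf (normalizer (J : Set H))) σ₀ fun n hn =>
    LinearMap.ext fun u => Subtype.ext (u.2 n hn)
  have hd : Nat.card (normalizer (J : Set H) ⧸ J.subgroupOf (normalizer (J : Set H))) ∣ Nat.card H :=
    (card_quotient_dvd_card _).trans (card_subgroup_dvd_card _)
  refine ⟨_, U, inferInstance, inferInstance, inferInstance, inferInstance, inferInstance, σ,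
    ⟨inferInstance, ⟨⟨⟨v₀, fun j hj => (hSt _ j).1 (hJ ▸ hj)⟩, 0, fun e => h0 (congrArg Subtype.val e)⟩⟩,
      fun e u hu q => ?_, fun u a => ?_, fun e u a hu q => ?_, fun e k hk => ?_⟩, hd, fun hD u u' a b => ?_⟩
  · obtain ⟨n, rfl⟩ := QuotientGroup.mk_surjective e
    exact (QuotientGroup.eq_one_iff n).2 (mem_subgroupOf.2 ((s1 u hu).le ((hSt _ _).2 (congrArg Subtype.val q))))
  · by_cases hu : u = 0
    · exact ⟨1, by rw [hu, map_zero, smul_zero]⟩
    obtain ⟨k, -, e⟩ := hg.ev 1 u a (by simp)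
    exact ⟨QuotientGroup.mk ⟨k, s2 u ((a : ZMod p) • u) hu (smul_ne_zero a.ne_zero hu) k e⟩, Subtype.ext e⟩
  · obtain ⟨n, rfl⟩ := QuotientGroup.mk_surjective e
    obtain ⟨D, ν, h1, h2⟩ := exists_char ρ (v := u) fun e => hu (Subtype.ext e)
    obtain ⟨v', v0, hv⟩ := h p ρ hg.cop hg.rat.real D ν u (fun e => hu (Subtype.ext e)) h1
    obtain ⟨m, e⟩ := h2 n a (congrArg Subtype.val q)
    refine ⟨⟨v', fun j hj => ?_⟩, fun e => v0 (congrArg Subtype.val e), Subtype.ext (e ▸ hv ⟨n, m⟩)⟩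
    obtain ⟨m', e'⟩ := h2 j 1 (by simpa using u.2 j hj)
    simpa [e'] using hv ⟨j, m'⟩
  · obtain ⟨n, rfl⟩ := QuotientGroup.mk_surjective e
    obtain ⟨m, m1, m2⟩ := exists_coprime_modEq Nat.card_pos.ne' ((_root_.orderOf_dvd_natCard _).trans hd) hk
    rw [← pow_eq_pow_iff_modEq.2 m2, ← QuotientGroup.mk_pow]
    have := Fintype.ofFinite J
    have c0 : (Nat.card J : ZMod p) ≠ 0 := fun e =>
      hg.cop (((ZMod.natCast_eq_zero_iff _ p).1 e).trans (card_subgroup_dvd_card J))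
    have c1 : ∀ j : J, ((n : H) ^ m)⁻¹ * (n * j) ^ m ∈ J := fun j => by
      have : (QuotientGroup.mk n : _ ⧸ J.subgroupOf (normalizer (J : Set H))) =
          QuotientGroup.mk (n * ⟨j, le_normalizer j.2⟩) := QuotientGroup.eq.2 (by simp [mem_subgroupOf])
      exact mem_subgroupOf.1 (QuotientGroup.eq.1 (show (QuotientGroup.mk (n ^ m) :
        _ ⧸ J.subgroupOf (normalizer (J : Set H))) = QuotientGroup.mk ((n * ⟨j, le_normalizer j.2⟩) ^ m) by
          rw [QuotientGroup.mk_pow, QuotientGroup.mk_pow, this]))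
    refine mul_left_cancel₀ c0 (((T1.sum_trace ρ J hU _ (s3 (n ^ m))).symm.trans (Eq.symm ?_)).trans
      (T1.sum_trace ρ J hU _ (s3 n)))
    have c2 : Function.Injective fun j : J => (⟨_, c1 j⟩ : J) := fun j j' e =>
      Subtype.ext (mul_left_cancel (a := (n : H)) ((powCoprime m1.symm).injective
        (mul_left_cancel (congrArg Subtype.val e))))
    refine Fintype.sum_bijective _ (Finite.injective_iff_bijective.1 c2) _ _ fun j => ?_
    rw [← map_mul, ← map_mul, coe_pow, mul_inv_cancel_left]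
    exact T1.trace_conj ρ (hg.rat _ m (m1.coprime_dvd_right (_root_.orderOf_dvd_natCard _)))
  · have c : ∀ u : U, u ≠ 0 → Nat.card {h : H // ρ h u = u} = Nat.card J := fun u hu =>
      Nat.card_congr (Equiv.subtypeEquivRight fun g => by rw [← hSt, s1 u hu])
    obtain ⟨k, e⟩ := hD u u' ((c u a).trans (c u' b).symm)
    exact ⟨QuotientGroup.mk ⟨k, s2 u u' a b k e⟩, Subtype.ext e⟩

end Cfsg.Lib.DCS
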