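import Cfsg.Agent.DCS.Form
import Cfsg.Agent.Solv.CoprimeGen

/-! Tower DCS (S4162): Sylow `p`-subgroups of rational solvable groups are normal for `p ≥ 5`. -/

set_option autoImplicit false

namespace Cfsg.Lib.DCS

open Subgroup Cfsg.Lib.Solv

universe u

namespace NormA

variable {p : ℕ} [hp : Fact p.Prime]

theorem cast_ne {j : ℕ} (h0 : 1 ≤ j) (h : j < p) : (j : ZMod p) ≠ 0 := fun e =>
  absurd (Nat.le_of_dvd h0 ((ZMod.natCast_eq_zero_iff j p).1 e)) h.not_ge

/-- the perpendicular of a hyperplane -/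
theorem perp (h5 : 5 ≤ p) {K : Type*} [Group K] [Finite K] (hr : Rat K) {N : Subgroup K} [N.Normal]
    [ElemAb p N] {B} (hB : IsForm (Vec.rep p (MulAut.conjNormal : K →* MulAut N)) B)
    {N1 : Subgroup K} (h1 : N1 ≤ N) {r : K} (hN : r ∈ N) (hn : r ∉ N1)
    (gen : ∀ x ∈ N, ∃ b ∈ N1, ∃ i : ℕ, x = b * r ^ i) :
    ∃ w ∈ N1, w ≠ 1 ∧ ∀ (g : K) (l i : ℕ), ∀ b ∈ N1, g * w * g⁻¹ = w ^ l →
      g * r * g⁻¹ = b * r ^ i → (l : ZMod p) * i = 1 := by
  have alt : ∀ v, B v v = 0 := fun v => by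
    obtain ⟨g, hg⟩ := isConj_iff.1 (hr (Vec.toMul v).1 2 (((Nat.coprime_primes Nat.prime_two
      hp.out).2 (by omega)).coprime_dvd_right (orderOf_dvd_of_pow_eq_one
        (congrArg Subtype.val (ElemAb.pow_eq_one (p := p) (Vec.toMul v))))))
    refine hB.isotropic (g := g) (a := ((2 : ℕ) : ZMod p)) (fun e => cast_ne (p := p) (j := 3)
      (by omega) (by omega) (by push_cast at e ⊢; linear_combination e)) (Vec.toMul.injective ?_)
    rw [Vec.toMul_natCast_smul]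
    exact Subtype.ext hg
  let U := Vec.subEquiv p N (N1.subgroupOf N)
  let s := Vec.ofMul p (⟨r, hN⟩ : N)
  obtain ⟨w, hw, w0⟩ := Submodule.exists_mem_ne_zero_of_ne_bot
    (LinearMap.ker_ne_bot_of_finrank_lt (f := B.compl₂ U.subtype) (by
      rw [Subspace.dual_finrank_eq]
      exact Submodule.finrank_lt fun e => hn (show s ∈ U from e ▸ trivial)))
  have k : ∀ b (hb : b ∈ N1) (i : ℕ) v, (Vec.toMul v).1 = b * r ^ i → B w v = i * B w s :=
    fun b hb i v e => by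
    rw [show v = Vec.ofMul p ⟨b, h1 hb⟩ + (i : ZMod p) • s from Vec.toMul.injective (by
        rw [Vec.toMul_add, Vec.toMul_natCast_smul]; exact Subtype.ext e), map_add, map_smul,
      show B w (Vec.ofMul p ⟨b, h1 hb⟩) = 0 from LinearMap.congr_fun hw ⟨_, hb⟩, zero_add, smul_eq_mul]
  have s0 : B w s ≠ 0 := fun e => w0 (hB.ndl w fun v => by
    obtain ⟨b, hb, i, e'⟩ := gen _ (Vec.toMul v).2
    rw [k b hb i v e', e, mul_zero])
  refine ⟨(Vec.toMul w).1, ?_, fun e => w0 (Subtype.ext e), fun g l i b hb e1 e2 => ?_⟩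
  · obtain ⟨b, hb, i, e⟩ := gen _ (Vec.toMul w).2
    obtain ⟨j, rfl⟩ := (ZMod.natCast_eq_zero_iff i p).1
      ((mul_eq_zero.1 ((k b hb i w e).symm.trans (alt w))).resolve_right s0)
    rwa [e, pow_mul, show r ^ p = 1 from congrArg Subtype.val (ElemAb.pow_eq_one (p := p) ⟨r, hN⟩),
      one_pow, mul_one]
  · have := hB.inv g w s
    rw [show Vec.rep p (MulAut.conjNormal : K →* MulAut N) g w = (l : ZMod p) • w from
      Vec.toMul.injective (by rw [Vec.toMul_natCast_smul]; exact Subtype.ext e1), map_smul,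
      LinearMap.smul_apply, k b hb i (Vec.rep p MulAut.conjNormal g s) e2,
      smul_eq_mul, ← mul_assoc] at this
    exact (mul_eq_right₀ s0).1 this

end NormA

open NormA in
theorem wNorm (hF : WForm.{u}) : WNorm.{u} := by
  intro p hp G _ _ h5
  refine card_induction (P := fun G _ _ => Group.IsSolvable G → Rat G →
    ∀ P : Sylow p G, (P : Subgroup G).Normal) (fun G _ _ ih hs hr P => ?_) G
  by_contra hn
  have key : ∀ W : Subgroup G, ∀ [W.Normal], W ≠ ⊥ → ((P : Subgroup G).map (QuotientGroup.mk' W)).Normal :=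
    fun W _ h0 => ih _ (card_quotient_lt h0) inferInstance
      (hr.of_surjective _ (QuotientGroup.mk'_surjective W))
      (P.mapSurjective (QuotientGroup.mk'_surjective W))
  have hO : ∀ N : Subgroup G, N.Normal → IsPGroup p N → N = ⊥ := fun N _ hN => by_contra fun h0 =>
    hn (by
      have := (key N h0).comap (QuotientGroup.mk' N)
      rwa [comap_map_eq_self ((QuotientGroup.ker_mk' N).le.trans (hN.le_sylow_of_normal P))] at this)
  have P0 : (P : Subgroup G) ≠ ⊥ := fun e => hn (e ▸ normal_bot)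
  have : Nontrivial G := not_subsingleton_iff_nontrivial.1 fun _ => P0 (Subsingleton.elim _ _)
  obtain ⟨l, W, hl, hW, hWc, hWl, hWp⟩ := exists_isMinNormal_elementary G
  have := hW.normal
  have := Fact.mk hl
  have : ElemAb l W := .of_subgroup hWl
  have lp : l ≠ p := fun e => hW.ne_bot (hO W hW.normal (e ▸ hWp))
  have cop : l.Coprime p := (Nat.coprime_primes hl hp.out).2 lp
  have dj := IsPGroup.disjoint_of_ne l p lp _ _ hWp P.2
  let π := QuotientGroup.mk' W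
  have inj : ∀ x ∈ (P : Subgroup G), π x = 1 → x = 1 := fun x hx e =>
    disjoint_def.1 dj ((QuotientGroup.eq_one_iff x).1 e) hx
  have := key W hW.ne_bot
  obtain ⟨N, hN, NP⟩ := exists_isMinNormal_le ((P : Subgroup G).map π) fun e =>
    P0 (eq_bot_iff.2 fun x hx => inj x hx (e.le (mem_map_of_mem π hx)))
  have := hN.normal
  obtain ⟨hNc, hNp⟩ := hN.elementary_of_isPGroup ((P.2.map π).to_le NP)
  have : ElemAb p N := .of_subgroup hNp
  let R : Subgroup G := N.comap π ⊓ P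
  have sur : ∀ y ∈ N, ∃ x ∈ R, π x = y := fun y hy =>
    let ⟨x, hx, e⟩ := NP hy
    ⟨x, ⟨show π x ∈ N from e ▸ hy, hx⟩, e⟩
  have Rp : ∀ x ∈ R, x ^ p = 1 := fun x hx => inj _ (pow_mem hx.2 p) (by rw [map_pow, hNp _ hx.1])
  have : IsMulCommutative R := ⟨⟨fun x y => Subtype.ext (mul_inv_eq_one.1 (inj _
    (mul_mem (mul_mem x.2.2 y.2.2) (inv_mem (mul_mem y.2.2 x.2.2))) (by
      simp only [map_mul, map_inv, coe_mul, setLike_mul_comm (s := N) x.2.1 y.2.1, mul_inv_cancel])))⟩⟩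
  have dec : ∀ g, ∀ x ∈ R, ∃ u ∈ W, ∃ y ∈ R, g * x * g⁻¹ = u * y := fun g x hx => by
    obtain ⟨y, hy, e⟩ := sur _ (hN.normal.conj_mem _ hx.1 (π g))
    exact ⟨g * x * g⁻¹ * y⁻¹, (QuotientGroup.eq_one_iff _).1 (show π _ = 1 by simp [e]), y, hy, by simp⟩
  have hfix : W ⊓ centralizer (R : Set G) = ⊥ := by
    refine (hW.min (W ⊓ centralizer (R : Set G)) ⟨fun v hv g => ⟨hW.normal.conj_mem v hv.1 g, fun x hx => ?_⟩⟩
      inf_le_left).resolve_right fun e => hN.ne_bot (eq_bot_iff.2 fun y hy => ?_)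
    · obtain ⟨u, hu, y, hy, e⟩ := dec g⁻¹ x hx
      have : Commute (u * y) v := Commute.mul_left (setLike_mul_comm hu hv.1) (hv.2 y hy)
      rw [← e] at this
      simpa [mul_assoc] using ((Commute.conj_iff g).2 this).eq
    · obtain ⟨x, hx, rfl⟩ := sur y hy
      rw [(hO R ⟨fun x hx g => ?_⟩ (P.2.to_le inf_le_right)).le hx, map_one]
      · exact one_mem _
      obtain ⟨u, hu, y, hy, e'⟩ := dec g x hx
      have := congrArg (· ^ p) e'
      simp only [conj_pow, Rp x hx, Commute.mul_pow ((e.ge hu).2 y hy).symm, Rp y hy, mul_one,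
        mul_inv_cancel] at this
      rwa [e', (pow_eq_one_iff_of_coprime cop).1 ⟨hWl u hu, this.symm⟩, one_mul]
  obtain ⟨m, hm⟩ := IsPGroup.iff_card.1 hWp
  have cJ : ∀ J ≤ R, (Nat.card J).Coprime l := fun J hJ => by
    obtain ⟨n, hn⟩ := IsPGroup.iff_card.1 (P.2.to_le (hJ.trans inf_le_right))
    exact hn ▸ cop.symm.pow_left n
  obtain ⟨J, JR, ⟨r, hR, hJ⟩, J0⟩ : ∃ J ≤ R, (∃ r ∈ R, J ⊔ zpowers r = R) ∧
      ¬ W ⊓ centralizer (J : Set G) ≤ ⊥ := by
    by_contra! e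
    exact hW.ne_bot (le_bot_iff.1 (Coprime.le_of_forall_cocyclic le_normalizer_of_normal
      (hm ▸ (cJ R le_rfl).pow_right m) e))
  have gen : ∀ x ∈ R, ∃ b ∈ J, ∃ i : ℕ, x = b * r ^ i := fun x hx => by
    obtain ⟨b, hb, z, hz, rfl⟩ := (Coprime.mem_sup_iff ((zpowers_le.2 hR).trans
      (Coprime.le_normalizer_of_le_of_comm JR))).1 (hJ ▸ hx)
    obtain ⟨i, rfl⟩ := mem_powers_iff_mem_zpowers.2 hz
    exact ⟨b, hb, i, rfl⟩
  have rJ : r ∉ J := fun e => J0 (by rw [← hfix, ← hJ, sup_of_le_left (zpowers_le.2 e)])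
  have eqP : ∀ x ∈ R, ∀ y ∈ R, π x = π y → x = y := fun x hx y hy e =>
    mul_inv_eq_one.1 (inj _ (mul_mem hx.2 (inv_mem hy.2)) (by simp [e]))
  obtain ⟨B, hB⟩ := hF p (hr.of_surjective π (QuotientGroup.mk'_surjective W)).real N hN
  obtain ⟨_, ⟨w, hw, rfl⟩, w1, hw'⟩ := perp h5 (hr.of_surjective π (QuotientGroup.mk'_surjective W))
    hB (N1 := J.map π) (map_le_iff_le_comap.2 (JR.trans inf_le_left)) (r := π r) hR.1
    (fun ⟨x, hx, e⟩ => rJ (eqP x (JR hx) r hR e ▸ hx)) fun y hy => by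
      obtain ⟨x, hx, rfl⟩ := sur y hy
      obtain ⟨b, hb, i, rfl⟩ := gen x hx
      exact ⟨_, mem_map_of_mem π hb, i, by simp⟩
  obtain ⟨β, hβ⟩ := hF l hr.real W hW
  set ρ := Vec.rep l (MulAut.conjNormal : G →* MulAut W)
  have fx : ∀ g v, ρ g v = v ↔ g * (Vec.toMul v).1 = (Vec.toMul v).1 * g := fun g v =>
    Subtype.ext_iff.trans mul_inv_eq_iff_eq_mul
  have main : ∀ k : ℕ, 1 ≤ k → k < p → ∀ v, (∀ g ∈ J, ρ g v = v) →
      β v (ρ r v) = β v (ρ (r ^ k) v) := fun k k1 k2 v hv => by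
    have k0 := cast_ne k1 k2
    have op := orderOf_dvd_of_pow_eq_one (Rp w (JR hw))
    obtain ⟨g, g1, g2⟩ := hr.mix ((fx w v).1 (hv w hw)).symm
      ((cop.coprime_dvd_left (orderOf_dvd_of_pow_eq_one (hWl _ (Vec.toMul v).2))).coprime_dvd_right op)
      ((ZMod.val_coe_unit_coprime (Units.mk0 _ (inv_ne_zero k0))).coprime_dvd_right op)
    obtain ⟨u, hu, y, hy, e⟩ := dec g r hR
    obtain ⟨b, hb, i, rfl⟩ := gen y hy
    have h1 := hw' (π g) _ i (π b) (mem_map_of_mem π hb) (by simpa using congrArg π g2) (by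
      simpa [show π u = 1 from (QuotientGroup.eq_one_iff u).2 hu] using congrArg π e)
    rw [ZMod.natCast_zmod_val, inv_mul_eq_one₀ k0, ZMod.natCast_eq_natCast_iff,
      Nat.ModEq] at h1
    rw [← hβ.inv g, (fx g v).2 g1, ← Module.End.mul_apply, ← map_mul, mul_inv_eq_iff_eq_mul.1 e,
      map_mul, Module.End.mul_apply, (fx g v).2 g1, setLike_mul_comm (JR hb) (pow_mem hR i), map_mul,
      map_mul, Module.End.mul_apply, Module.End.mul_apply, hv b hb,
      (fx u _).2 (setLike_mul_comm hu (SetLike.coe_mem _)), pow_eq_pow_mod i (Rp r hR), ← h1,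
      ← pow_eq_pow_mod k (Rp r hR)]
  refine J0 fun v hv => congrArg (fun v : Vec l W => (Vec.toMul v).1) (hβ.core2 J
    (fun e => hl.coprime_iff_not_dvd.1 (cJ J JR).symm ((ZMod.natCast_eq_zero_iff _ l).1 e)) r
    (fun g hg => setLike_mul_comm (JR hg) hR) (fun j j1 j3 v hv e => Subtype.ext (hfix.le
      ⟨(Vec.toMul v).2, fun x hx => ?_⟩)) (main 2 (by omega) (by omega)) (fun v hv => ?_)
    (Vec.ofMul l ⟨v, hv.1⟩) fun g hg => (fx g _).2 (hv.2 g hg))
  · obtain ⟨b, hb, i, rfl⟩ := gen x hx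
    obtain ⟨n, hn⟩ := exists_pow_eq_self_of_coprime (x := r) (n := j)
      ((Nat.Coprime.symm ((Nat.Prime.coprime_iff_not_dvd hp.out).2 fun d => by
        have := Nat.le_of_dvd j1 d; omega)).coprime_dvd_right (orderOf_dvd_of_pow_eq_one (Rp r hR)))
    rw [← hn]
    exact Commute.mul_left ((fx b v).1 (hv b hb)) ((Commute.pow_left ((fx _ v).1 e) n).pow_left i)
  · rw [main (p - 1) (by omega) (by omega) v hv, ← mul_eq_one_iff_eq_inv.1
      (by rw [← pow_succ, Nat.sub_add_cancel (by omega), Rp r hR] : r ^ (p - 1) * r = 1)]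

end Cfsg.Lib.DCS
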