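import Cfsg.Agent.DCS.Plan2

/-! Tower DCS: the linear lemma for the prime five. -/

set_option autoImplicit false
set_option synthInstance.maxSize 4000

namespace Cfsg.Lib.DCS

universe u

namespace SL25

/-- two by two matrices as quadruples -/
abbrev M : Type := ZMod 5 × ZMod 5 × ZMod 5 × ZMod 5

/-- matrix product -/
def mul (x y : M) : M := (x.1 * y.1 + x.2.1 * y.2.2.1, x.1 * y.2.1 + x.2.1 * y.2.2.2,
  x.2.2.1 * y.1 + x.2.2.2 * y.2.2.1, x.2.2.1 * y.2.1 + x.2.2.2 * y.2.2.2)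

theorem mul_eq_1 : type_of% @mul.eq_1 := @mul.eq_1

/-- no unipotent part -/
abbrev Ok (x : M) : Prop := x.1 + x.2.2.2 = 2 ∨ x.1 + x.2.2.2 = 3 → x.2.1 = 0 ∧ x.2.2.1 = 0

/-- determinant one -/
abbrev D (x : M) : Prop := x.1 * x.2.2.2 - x.2.1 * x.2.2.1 = 1

theorem d0 : (2 : ZMod 5) ≠ 0 := by decide

theorem d5 : ∀ a b c d : ZMod 5, D (a, b, c, d) → a + d = 2 →
    mul (a, b, c, d) (mul (a, b, c, d) (mul (a, b, c, d) (mul (a, b, c, d) (a, b, c, d)))) =
      (1, 0, 0, 1) := by decide +kernel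

theorem d2 : ∀ a b c d : ZMod 5, D (a, b, c, d) → a + d = 3 →
    (mul (a, b, c, d) (a, b, c, d)).1 + (mul (a, b, c, d) (a, b, c, d)).2.2.2 = 2 ∧
      (mul (a, b, c, d) (a, b, c, d) = (1, 0, 0, 1) → b = 0 ∧ c = 0) := by decide +kernel

theorem d3 : ∀ a b c d : ZMod 5, D (a, b, c, d) → a + d = 4 →
    mul (a, b, c, d) (mul (a, b, c, d) (a, b, c, d)) = (1, 0, 0, 1) ∧ c ≠ 0 := by decide +kernel

theorem dA : ∀ t s b d : ZMod 5, D (2, t, 0, s) → D (t + 1, b, 1, d) → Ok (t + 1, b, 1, d) →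
    Ok (mul (2, t, 0, s) (t + 1, b, 1, d)) → t + 1 + d = 4 ∨
      (mul (2, t, 0, s) (t + 1, b, 1, d)).1 + (mul (2, t, 0, s) (t + 1, b, 1, d)).2.2.2 = 4 := by
  decide +kernel

theorem dB : ∀ a b c d : ZMod 5, D (a, b, c, d) → a + d = 4 → ∀ h : M, D h →
    mul (mul (a, b, c, d) h) (a, b, c, d) = h → ∀ x y : ZMod 5, D (1 - a, x, -c, y) →
    Ok (1 - a, x, -c, y) → Ok (mul (a, b, c, d) (1 - a, x, -c, y)) →
    Ok (mul (a, b, c, d) (mul (a, b, c, d) (1 - a, x, -c, y))) → Ok (mul h (1 - a, x, -c, y)) →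
    Ok (mul h (mul (a, b, c, d) (1 - a, x, -c, y))) →
    ¬ Ok (mul h (mul (a, b, c, d) (mul (a, b, c, d) (1 - a, x, -c, y)))) := by
  decide +kernel

theorem part {H N : Type*} [Group H] [Finite H] [Monoid N] (ρ : H →* N) {p : ℕ} (hp : p.Prime)
    {g : H} (h : ρ g ^ p = 1) : ∃ (g' : H) (k : ℕ), g' ^ p ^ k = 1 ∧ ρ g' = ρ g := by
  obtain ⟨k, n, hn, e⟩ := Nat.exists_eq_pow_mul_and_not_dvd (orderOf_pos g).ne' p hp.ne_one
  obtain ⟨j, hj⟩ := Nat.exists_eq_succ_of_ne_zero (Nat.totient_pos.2 hp.pos).ne'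
  refine ⟨g ^ n ^ p.totient, k, ?_, ?_⟩
  · rw [← pow_mul, ← orderOf_dvd_iff_pow_eq_one, e, hj, pow_succ]
    exact ⟨n ^ j, by ring⟩
  · rw [map_pow, pow_eq_pow_mod _ h, Nat.ModEq.pow_totient (hp.coprime_iff_not_dvd.2 hn).symm,
      ← pow_eq_pow_mod _ h, pow_one]

end SL25

open SL25 in
theorem wSL25 : WSL25.{u} := by
  intro _ H V _ _ _ _ ρ B hV hB alt h5 hD h3
  have : Finite V := Nat.finite_of_card_ne_zero (by omega)
  have rk : Module.finrank (ZMod 5) V = 2 := by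
    rw [Module.natCard_eq_pow_finrank (K := ZMod 5), Nat.card_zmod] at hV
    exact Nat.pow_right_injective (a := 5) (by decide) hV
  have b := Module.finBasisOfFinrankEq (ZMod 5) V rk
  have sp : ∀ u, ∃ x y : ZMod 5, u = x • b 0 + y • b 1 := fun u =>
    ⟨_, _, by rw [← Fin.sum_univ_two (fun i => b.repr u i • b i), b.sum_repr]⟩
  have v0 := b.ne_zero 0
  generalize b 0 = v, b 1 = w at sp v0
  have sk : B w v = -B v w := by
    have := alt (v + w)
    simp only [map_add, LinearMap.add_apply, alt] at this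
    linear_combination this
  have β : B v w ≠ 0 := fun h => v0 (hB.ndl v fun u => by
    obtain ⟨x, y, rfl⟩ := sp u
    simp [alt, h])
  have Bf : ∀ x y z t : ZMod 5, B (x • v + y • w) (z • v + t • w) = (x * t - y * z) * B v w :=
    fun x y z t => by
      simp only [map_add, map_smul, LinearMap.add_apply, LinearMap.smul_apply, smul_eq_mul, alt, sk]
      ring
  have li : ∀ x y z t : ZMod 5, x • v + y • w = z • v + t • w → x = z ∧ y = t := fun x y z t e => by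
    have a := Bf x y 0 1
    have c := Bf x y 1 0
    rw [e, Bf] at a c
    exact ⟨by simpa using (mul_right_cancel₀ β a).symm, by simpa using (mul_right_cancel₀ β c).symm⟩
  let A : H → M → Prop := fun g m =>
    ρ g v = m.1 • v + m.2.2.1 • w ∧ ρ g w = m.2.1 • v + m.2.2.2 • w
  have ap : ∀ g m, A g m → ∀ x y : ZMod 5, ρ g (x • v + y • w) =
      (m.1 * x + m.2.1 * y) • v + (m.2.2.1 * x + m.2.2.2 * y) • w := fun g m h x y => by
    rw [map_add, map_smul, map_smul, h.1, h.2]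
    module
  have ex : ∀ g, ∃ m, A g m := fun g => by
    obtain ⟨a, c, e⟩ := sp (ρ g v)
    obtain ⟨b, d, f⟩ := sp (ρ g w)
    exact ⟨(a, b, c, d), e, f⟩
  have mu : ∀ {g m g' m'}, A g m → A g' m' → A (g * g') (mul m m') := fun {g m g' m'} h h' =>
    ⟨by rw [map_mul, Module.End.mul_apply, h'.1, ap g m h]; rfl,
      by rw [map_mul, Module.End.mul_apply, h'.2, ap g m h]; rfl⟩
  have dt : ∀ {g m}, A g m → D m := fun {g m} h => by
    have := hB.inv g v w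
    rw [h.1, h.2, Bf] at this
    exact (mul_comm m.2.1 _ ▸ mul_left_eq_self₀.1 this).resolve_right β
  have un : ∀ {g m m'}, A g m → A g m' → m = m' := fun {g m m'} h h' => by
    have a := li _ _ _ _ (h.1.symm.trans h'.1)
    have c := li _ _ _ _ (h.2.symm.trans h'.2)
    exact Prod.ext a.1 (Prod.ext c.1 (Prod.ext a.2 c.2))
  have one : ∀ {g}, A g (1, 0, 0, 1) ↔ ρ g = 1 := fun {g} => ⟨fun h => LinearMap.ext fun u => by
    obtain ⟨x, y, rfl⟩ := sp u
    simpa using ap g _ h x y, fun h => by simp [A, h]⟩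
  have t2 : ∀ {g m}, A g m → m.1 + m.2.2.2 = 2 → ρ g = 1 := fun {g m} h e => by
    have a := mu h (mu h (mu h (mu h h)))
    rw [d5 _ _ _ _ (dt h) e, one] at a
    obtain ⟨g', k, c, f⟩ := part ρ Nat.prime_five (g := g) (by simpa [pow_succ, mul_assoc] using a)
    exact f ▸ h5 g' k c
  have ok : ∀ {g m}, A g m → Ok m := fun {g m} h e => by
    rcases e with e | e
    · simp [un h (one.2 (t2 h e))]
    · have a := d2 _ _ _ _ (dt h) e
      exact a.2 (un (mu h h) (one.2 (t2 (mu h h) a.1)))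
  have fr : ∀ x y : ZMod 5, x ≠ 0 ∨ y ≠ 0 → ∀ g, ρ g (x • v + y • w) = x • v + y • w ↔ ρ g = 1 :=
    fun x y hxy g => ⟨fun e => by
      obtain ⟨m, h⟩ := ex g
      obtain ⟨e1, e2⟩ := li _ _ _ _ ((ap g m h x y).symm.trans e)
      have d : _ = _ := dt h
      refine t2 h ?_
      rcases hxy with a | a <;> refine mul_right_cancel₀ a ?_
      · linear_combination x * d - (m.2.2.2 - 1) * e1 + m.2.1 * e2
      · linear_combination y * d - (m.1 - 1) * e2 + m.2.2.1 * e1, fun e => by simp [e]⟩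
  have tr : ∀ x y : ZMod 5, x ≠ 0 ∨ y ≠ 0 → ∃ g s t, A g (x, s, y, t) := fun x y hxy => by
    obtain ⟨g, e⟩ := hD ((1 : ZMod 5) • v + (0 : ZMod 5) • w) (x • v + y • w) (by
      simp only [fr x y hxy, fr 1 0 (.inl one_ne_zero)])
    obtain ⟨s, t, f⟩ := sp (ρ g w)
    exact ⟨g, s, t, by simpa using e, f⟩
  obtain ⟨c, m, hc, e⟩ : ∃ c m, A c m ∧ m.1 + m.2.2.2 = 4 := by
    obtain ⟨k, t, s, hk⟩ := tr 2 0 (.inl d0)
    obtain ⟨g, b, d, hg⟩ := tr (t + 1) 1 (.inr one_ne_zero)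
    rcases dA t s b d (dt hk) (dt hg) (ok hg) (ok (mu hk hg)) with a | a
    exacts [⟨g, _, hg, a⟩, ⟨_, _, mu hk hg, a⟩]
  have a := mu hc (mu hc hc)
  rw [(d3 _ _ _ _ (dt hc) e).1, one] at a
  obtain ⟨c', j, c3, f⟩ := part ρ Nat.prime_three (g := c) (by simpa [pow_succ, mul_assoc] using a)
  have hc' : A c' m := by simpa only [A, f] using hc
  obtain ⟨h, hh⟩ := isConj_iff.1 (h3 c' j c3)
  obtain ⟨n, hn⟩ := ex h
  have a := mu (mu hc' hn) hc'
  rw [show c' * h * c' = h by rw [mul_assoc, mul_inv_eq_iff_eq_mul.1 hh]; group] at a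
  obtain ⟨k, x, y, hk⟩ := tr (1 - m.1) (-m.2.2.1) (.inr (neg_ne_zero.2 (d3 _ _ _ _ (dt hc) e).2))
  exact dB _ _ _ _ (dt hc) e n (dt hn) (un a hn) x y (dt hk) (ok hk) (ok (mu hc hk))
    (ok (mu hc (mu hc hk))) (ok (mu hn hk)) (ok (mu hn (mu hc hk))) (ok (mu hn (mu hc (mu hc hk))))

end Cfsg.Lib.DCS
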