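import Cfsg.Agent.DCS.Plan2
import Cfsg.Agent.DCS.FourS

/-! Tower DCS: a centralizer of order 4 in a rational group bounds the Sylow 2-subgroup. -/

set_option autoImplicit false

namespace Cfsg.Lib.DCS

universe u

theorem wSyl8 : WSyl8.{u} := by
  intro G _ _ h x hx h16
  have := Fact.mk Nat.prime_two
  obtain ⟨S, -, hS⟩ := FourS.sylow h hx
  have h1 := (S : Subgroup G).card_mul_index
  have h2 := S.not_dvd_index
  rcases hS with e | e <;> rw [e] at h1 <;> omega

end Cfsg.Lib.DCS
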