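import Cfsg.Agent.DCS.Defs
import Cfsg.Agent.Solv.ElemAb

/-! Tower DCS: the trace trick. -/

set_option autoImplicit false

namespace Cfsg.Lib.DCS

open Subgroup Cfsg.Lib.Solv

universe u

namespace T1

variable {K Γ V : Type*} [Field K] [Group Γ] [AddCommGroup V] [Module K V] [FiniteDimensional K V]

theorem sum_trace (ρ : Γ →* Module.End K V) (J : Subgroup Γ) [Fintype J] {U : Submodule K V}
    (hU : ∀ v, v ∈ U ↔ ∀ j ∈ J, ρ j v = v) (f : Module.End K V) (hf : ∀ v ∈ U, f v ∈ U) :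
    ∑ j : J, LinearMap.trace K V (f * ρ j) =
      (Nat.card J : K) * LinearMap.trace K U (f.restrict hf) := by
  have h1 : ∀ v, (f * ∑ j : J, ρ j) v ∈ U := fun v => hf _ ((hU _).2 fun k hk => by
    rw [LinearMap.sum_apply, map_sum]
    exact Fintype.sum_equiv (Equiv.mulLeft (⟨k, hk⟩ : J)) _ _ fun j => by simp [map_mul])
  rw [← map_sum, ← Finset.mul_sum, ← LinearMap.trace_restrict_eq_of_forall_mem U _ h1,
    ← smul_eq_mul (Nat.card J : K), ← map_smul]
  congr 1
  ext u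
  have : ∀ j : J, ρ j u = u := fun j => (hU u).1 u.2 j j.2
  simp [LinearMap.sum_apply, this, Nat.cast_smul_eq_nsmul]

omit [FiniteDimensional K V] in
theorem trace_conj (ρ : Γ →* Module.End K V) {x y : Γ} (h : IsConj x y) :
    LinearMap.trace K V (ρ x) = LinearMap.trace K V (ρ y) := by
  obtain ⟨c, rfl⟩ := isConj_iff.1 h
  rw [map_mul, LinearMap.trace_mul_comm, ← map_mul, ← mul_assoc, inv_mul_cancel, one_mul]

theorem sum_line (ρ : Γ →* Module.End K V) (J : Subgroup Γ) [Fintype J] {v : V} (hv : v ≠ 0)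
    (hU : ∀ w, w ∈ Submodule.span K {v} ↔ ∀ j ∈ J, ρ j w = w) {f : Module.End K V} {a : K}
    (ha : f v = a • v) : ∑ j : J, LinearMap.trace K V (f * ρ j) = (Nat.card J : K) * a := by
  have h1 : ∀ w ∈ Submodule.span K {v}, f w = a • w := fun w hw => by
    obtain ⟨c, rfl⟩ := Submodule.mem_span_singleton.1 hw
    rw [map_smul, ha, smul_comm]
  have h2 : ∀ w ∈ Submodule.span K {v}, f w ∈ Submodule.span K {v} := fun w hw =>
    h1 w hw ▸ Submodule.smul_mem _ a hw
  rw [sum_trace ρ J hU f h2, show f.restrict h2 = a • LinearMap.id from LinearMap.ext fun w => Subtype.ext (h1 w w.2), map_smul,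
    LinearMap.trace_id, finrank_span_singleton hv, Nat.cast_one, smul_eq_mul, mul_one]

theorem core (ρ : Γ →* Module.End K V) (J : Subgroup Γ) [Finite J] (hJ : (Nat.card J : K) ≠ 0) {h : Γ}
    (ht : ∀ j ∈ J, LinearMap.trace K V (ρ (h * j)) = LinearMap.trace K V (ρ (h * j)⁻¹)) {v : V}
    (hv : v ≠ 0) (hU : ∀ w, w ∈ Submodule.span K {v} ↔ ∀ j ∈ J, ρ j w = w) {a : K}
    (ha : ρ h v = a • v) : a * a = 1 := by
  have := Fintype.ofFinite J
  have h1 : a • ρ h⁻¹ v = v := by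
    rw [← map_smul, ← ha, ← Module.End.mul_apply, ← map_mul, inv_mul_cancel, map_one, Module.End.one_apply]
  have h0 : a ≠ 0 := fun e => hv (by rw [← h1, e, zero_smul])
  have h2 := sum_line ρ J hv hU ha
  have h3 := sum_line ρ J hv hU (f := ρ h⁻¹) (a := a⁻¹) ((eq_inv_smul_iff₀ h0).2 h1)
  rw [Fintype.sum_equiv (Equiv.inv J) _ (fun j : J => LinearMap.trace K V (ρ h⁻¹ * ρ j)) fun j => by
    rw [← map_mul, ht j j.2, mul_inv_rev, map_mul, LinearMap.trace_mul_comm]; rfl, h3] at h2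
  nth_rewrite 1 [← mul_left_cancel₀ hJ h2]
  exact inv_mul_cancel₀ h0

end T1

theorem wT1 : WT1.{u} := by
  intro p _ G _ _ hr A _ hA J hJ h _ v hvA hv1 hfix a ha
  have := ElemAb.of_isElementaryAbelian hA
  let ρ : G →* Module.End (ZMod p) (Vec p A) :=
    { toFun := fun g => Vec.linMap p (MulAut.conjNormal g : MulAut A)
      map_one' := by ext; simp
      map_mul' := fun a b => by ext; simp }
  have hρ : ∀ g w, ρ g w = w ↔ (Vec.toMul w : A) * g = g * (Vec.toMul w : A) := fun g w => by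
    rw [← Vec.toMul.injective.eq_iff, Subtype.ext_iff, eq_comm (a := _ * g), ← mul_inv_eq_iff_eq_mul]
    rfl
  have hk : ρ.toHomUnits.ker = centralizer (A : Set G) := by
    ext g
    rw [MonoidHom.mem_ker, Units.ext_iff, mem_centralizer_iff]
    exact ⟨fun e w hw => (hρ g (Vec.ofMul p ⟨w, hw⟩)).1 (LinearMap.congr_fun e _),
      fun e => LinearMap.ext fun w => (hρ g w).2 (e _ (Vec.toMul w).2)⟩
  rw [← hk, relIndex_ker] at hJ
  have : Finite (J.map ρ.toHomUnits) := Finite.of_surjective _ (ρ.toHomUnits.subgroupMap_surjective J)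
  have e := T1.core (Units.coeHom _) (J.map ρ.toHomUnits) (mt (ZMod.natCast_eq_zero_iff _ p).1 hJ)
    (h := ρ.toHomUnits h) (v := Vec.ofMul p ⟨v, hvA⟩) (a := (a : ZMod p)) ?_
    (fun e => hv1 (congrArg Subtype.val (Vec.ofMul_eq_zero.1 e))) (fun w => ?_) ?_
  · exact (ZMod.natCast_eq_natCast_iff _ _ p).1 (by push_cast; exact e)
  · rintro _ ⟨j, -, rfl⟩
    rw [← map_mul, ← map_inv]
    exact T1.trace_conj ρ (hr _)
  · refine ⟨fun hw => ?_, fun hw => ?_⟩
    · rintro _ ⟨j, hj, rfl⟩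
      obtain ⟨c, rfl⟩ := Submodule.mem_span_singleton.1 hw
      rw [map_smul]
      exact congrArg _ ((hρ j _).2 ((hfix.ge (mem_zpowers v)).2 j hj).symm)
    · obtain ⟨n, hn⟩ := hfix.le (⟨(Vec.toMul w).2, fun j hj => ((hρ j w).1 (hw _ ⟨j, hj, rfl⟩)).symm⟩ :
        (Vec.toMul w : A).1 ∈ A ⊓ centralizer (J : Set G))
      refine Submodule.mem_span_singleton.2 ⟨(n : ZMod p), Vec.toMul.injective (Subtype.ext ?_)⟩
      rw [Vec.toMul_intCast_smul]
      exact hn
  · refine Vec.toMul.injective (Subtype.ext ?_)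
    rw [Vec.toMul_natCast_smul]
    exact ha

end Cfsg.Lib.DCS
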